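import Mathlib
import Cfsg.Agent.S3377
import Cfsg.Agent.S0805
import Cfsg.Agent.Helper23.QP2
import Cfsg.Agent.Helper18.PSL2Aut1

/-!
# The `A₅`-subgroups of `PSL₂(11)`: decidable facts (helper1)

Facts about `A₅` and about two by two matrices over `ZMod 11`, all by kernel evaluation.
-/

set_option autoImplicit false

namespace Cfsg.Agent.Helper1.A5L11

open Cfsg Cfsg.Agent.Helper12 Cfsg.Agent.Helper23.QP Cfsg.Agent.Helper18.OutPSL2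
open scoped Pointwise

instance fact11 : Fact (Nat.Prime 11) := ⟨by norm_num⟩

/-- the field with eleven elements -/
abbrev K := ZMod 11
/-- two by two matrices -/
abbrev Mt := Matrix (Fin 2) (Fin 2) K
/-- `SL₂(11)` -/
abbrev S := Matrix.SpecialLinearGroup (Fin 2) K
/-- `PSL₂(11)` -/
abbrev G := Matrix.ProjectiveSpecialLinearGroup (Fin 2) K
/-- `A₅` -/
abbrev A5 := alternatingGroup (Fin 5)

/-! ### facts about `A₅` -/

theorem F1 : ∀ σ : A5, σ ^ 2 = 1 ∨ σ ^ 3 = 1 ∨ σ ^ 5 = 1 := by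
  decide +kernel

theorem F2 : ∀ σ : A5, σ ^ 5 = 1 → σ ≠ 1 → ∀ τ : A5, τ ^ 5 = 1 → τ ≠ 1 →
    ∃ ρ : A5, ρ * σ * ρ⁻¹ = τ ∨ ρ * σ ^ 2 * ρ⁻¹ = τ := by
  decide +kernel

/-! ### decidable facts about two by two matrices over `ZMod 11` -/

theorem d2 : ∀ a b c d : K, a * d - b * c = 1 →
    ((!![a, b; c, d] : Mt) * !![a, b; c, d] = 1 ∨
      (!![a, b; c, d] : Mt) * !![a, b; c, d] = !![-1, 0; 0, -1]) →
    (b = 0 ∧ c = 0 ∧ a = d) ∨ a + d = 0 := by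
  decide +kernel

theorem d3 : ∀ a b c d : K, a * d - b * c = 1 →
    ((!![a, b; c, d] : Mt) * !![a, b; c, d] * !![a, b; c, d] = 1 ∨
      (!![a, b; c, d] : Mt) * !![a, b; c, d] * !![a, b; c, d] = !![-1, 0; 0, -1]) →
    (b = 0 ∧ c = 0 ∧ a = d) ∨ a + d = -1 ∨ a + d = 1 := by
  decide +kernel

theorem d5 : ∀ a b c d : K, a * d - b * c = 1 →
    ((!![a, b; c, d] : Mt) * !![a, b; c, d] * !![a, b; c, d] * !![a, b; c, d] * !![a, b; c, d] = 1 ∨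
      (!![a, b; c, d] : Mt) * !![a, b; c, d] * !![a, b; c, d] * !![a, b; c, d] * !![a, b; c, d] =
        !![-1, 0; 0, -1]) →
    (b = 0 ∧ c = 0 ∧ a = d) ∨ a + d = 3 ∨ a + d = 7 ∨ a + d = 8 ∨ a + d = 4 := by
  decide +kernel

theorem dpow3 : ∀ a b c d : K, a * d - b * c = 1 → a + d = -1 →
    (!![a, b; c, d] : Mt) * !![a, b; c, d] * !![a, b; c, d] = 1 := by
  decide +kernel

theorem dpow5 : ∀ a b c d : K, a * d - b * c = 1 → (a + d = 3 ∨ a + d = 7) →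
    (!![a, b; c, d] : Mt) * !![a, b; c, d] * !![a, b; c, d] * !![a, b; c, d] * !![a, b; c, d] = 1 := by
  decide +kernel

theorem dno : ∀ a b c d : K, a * d - b * c = 1 → (a + d = 5 ∨ a + d = 6) →
    ¬ ((!![a, b; c, d] : Mt) * !![a, b; c, d] = 1 ∨
      (!![a, b; c, d] : Mt) * !![a, b; c, d] = !![-1, 0; 0, -1]) ∧
    ¬ ((!![a, b; c, d] : Mt) * !![a, b; c, d] * !![a, b; c, d] = 1 ∨
      (!![a, b; c, d] : Mt) * !![a, b; c, d] * !![a, b; c, d] = !![-1, 0; 0, -1]) ∧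
    ¬ ((!![a, b; c, d] : Mt) * !![a, b; c, d] * !![a, b; c, d] * !![a, b; c, d] * !![a, b; c, d] = 1 ∨
      (!![a, b; c, d] : Mt) * !![a, b; c, d] * !![a, b; c, d] * !![a, b; c, d] * !![a, b; c, d] =
        !![-1, 0; 0, -1]) := by
  decide +kernel

/-- candidate conjugating matrices diagonalising `[[p, q], [r, lam + mu - p]]` -/
def cand (lam mu p q r : K) : List Mt :=
  [!![(p - mu) * (q * (lam - mu))⁻¹, (lam - mu)⁻¹; p - lam, q],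
   !![(mu - lam)⁻¹, (lam + mu - p - mu) * (r * (mu - lam))⁻¹; r, lam + mu - p - lam],
   !![(p - mu) * ((lam - mu) * (lam + mu - p - p))⁻¹,
      (lam + mu - p - mu) * ((lam - mu) * (lam + mu - p - p))⁻¹; p - lam, lam + mu - p - lam]]

theorem dnf3 : ∀ p q r : K, p * (9 + 5 - p) - q * r = 1 →
    ∃ Q ∈ cand 9 5 p q r, Q 0 0 * Q 1 1 - Q 0 1 * Q 1 0 = 1 ∧
      Q * !![p, q; r, 9 + 5 - p] = !![9, 0; 0, 5] * Q := by
  decide +kernel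

theorem dnf7 : ∀ p q r : K, p * (4 + 3 - p) - q * r = 1 →
    ∃ Q ∈ cand 4 3 p q r, Q 0 0 * Q 1 1 - Q 0 1 * Q 1 0 = 1 ∧
      Q * !![p, q; r, 4 + 3 - p] = !![4, 0; 0, 3] * Q := by
  decide +kernel

theorem dx3 : ∀ a b c d : K, a * d - b * c = 1 → a + d = -1 → 9 * a + 5 * d = 0 →
    ∃ s : K, s * s⁻¹ - 0 * 0 = 1 ∧
      (!![s, 0; 0, s⁻¹] : Mt) * !![9, 0; 0, 5] = !![9, 0; 0, 5] * !![s, 0; 0, s⁻¹] ∧
      ((!![s, 0; 0, s⁻¹] : Mt) * !![a, b; c, d] = !![4, 1; 1, 6] * !![s, 0; 0, s⁻¹] ∨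
        (!![s, 0; 0, s⁻¹] : Mt) * !![a, b; c, d] = !![4, 2; 6, 6] * !![s, 0; 0, s⁻¹]) := by
  decide +kernel

theorem dx7 : ∀ a b c d : K, a * d - b * c = 1 → a + d = -1 → 4 * a + 3 * d = 0 →
    ∃ s : K, s * s⁻¹ - 0 * 0 = 1 ∧
      (!![s, 0; 0, s⁻¹] : Mt) * !![4, 0; 0, 3] = !![4, 0; 0, 3] * !![s, 0; 0, s⁻¹] ∧
      ((!![s, 0; 0, s⁻¹] : Mt) * !![a, b; c, d] = !![3, 1; 9, 7] * !![s, 0; 0, s⁻¹] ∨
        (!![s, 0; 0, s⁻¹] : Mt) * !![a, b; c, d] = !![3, 2; 10, 7] * !![s, 0; 0, s⁻¹]) := by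
  decide +kernel

/-- first test word -/
def w1 (a b c d : K) : Mt :=
  !![a, b; c, d] * !![4, 1; 1, 6] * !![d, -b; -c, a] * !![4, 2; 6, 6] * !![5, 0; 0, 9]

/-- second test word -/
def w2 (a b c d : K) : Mt :=
  !![a, b; c, d] * !![4, 1; 1, 6] * !![d, -b; -c, a] * !![5, 0; 0, 9] * !![4, 2; 6, 6]

theorem dkey : ∀ a b c d : K, a * d - b * c = 1 →
    (!![a, b; c, d] : Mt) * !![9, 0; 0, 5] = !![9, 0; 0, 5] * !![a, b; c, d] →
    (Matrix.trace (w1 a b c d) = 5 ∨ Matrix.trace (w1 a b c d) = 6) ∨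
    (Matrix.trace (w2 a b c d) = 5 ∨ Matrix.trace (w2 a b c d) = 6) := by
  decide +kernel

end Cfsg.Agent.Helper1.A5L11
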