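import Mathlib
import Cfsg.Agent.Helper1.A5L11a

/-!
# The `A₅`-subgroups of `PSL₂(11)` (helper1)

Two conjugacy classes of eleven subgroups each.  The work is done over `ZMod 11` and transported
to an arbitrary field with eleven elements at the end (`main`).
-/

set_option autoImplicit false

namespace Cfsg.Agent.Helper1.A5L11

open Cfsg Cfsg.Agent.Helper12 Cfsg.Agent.Helper23.QP Cfsg.Agent.Helper18.OutPSL2
open scoped Pointwise

/-! ### basics -/

instance finG : Finite G := by unfold G; infer_instance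

theorem pr_negOne : pr (sl2NegOne : S) = 1 := by
  have h := (pr_eq_iff (sl2NegOne : S) 1).mpr (Or.inr (mul_one _).symm)
  rw [h, map_one]

theorem pr_eq_one {z : S} (h : pr z = 1) : z = 1 ∨ z = sl2NegOne := by
  have h' : pr z = pr 1 := by rw [h, map_one]
  rcases (pr_eq_iff z 1).mp h' with h1 | h1
  · exact Or.inl h1
  · exact Or.inr (by rw [h1, mul_one])

theorem trS_eq {z : S} {a b c d : K} (hz : (z : Mt) = !![a, b; c, d]) : trS z = a + d := by
  unfold trS
  rw [hz, Matrix.trace_fin_two_of]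

theorem pr_scalar {z : S} {a b c d : K} (hz : (z : Mt) = !![a, b; c, d])
    (hdet : a * d - b * c = 1) (hb : b = 0) (hc : c = 0) (had : a = d) : pr z = 1 := by
  rw [hb, hc, ← had] at hdet hz
  have h1 : a = 1 ∨ a = -1 := by
    have h0 : (a - 1) * (a + 1) = 0 := by linear_combination hdet
    rcases mul_eq_zero.mp h0 with h | h
    · left; linear_combination h
    · right; linear_combination h
  rcases h1 with h | h
  · rw [h] at hz
    have h2 : z = 1 := Subtype.ext (by rw [hz]; exact Matrix.one_fin_two.symm)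
    rw [h2, map_one]
  · rw [h] at hz
    have h2 : z = sl2NegOne := Subtype.ext (by rw [hz]; rfl)
    rw [h2, pr_negOne]

theorem pow_cases {z : S} {k : ℕ} (h : pr z ^ k = 1) : z ^ k = 1 ∨ z ^ k = sl2NegOne :=
  pr_eq_one (by rw [map_pow, h])

theorem val_sq (z : S) : ((z ^ 2 : S) : Mt) = (z : Mt) * (z : Mt) := by
  rw [Matrix.SpecialLinearGroup.coe_pow, pow_two]

theorem val_cube (z : S) : ((z ^ 3 : S) : Mt) = (z : Mt) * (z : Mt) * (z : Mt) := by
  rw [Matrix.SpecialLinearGroup.coe_pow, pow_succ, pow_two]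

theorem val_five (z : S) :
    ((z ^ 5 : S) : Mt) = (z : Mt) * (z : Mt) * (z : Mt) * (z : Mt) * (z : Mt) := by
  rw [Matrix.SpecialLinearGroup.coe_pow, pow_succ, pow_succ, pow_succ, pow_two]

theorem val_cases {w : S} (h : w = 1 ∨ w = sl2NegOne) :
    (w : Mt) = 1 ∨ (w : Mt) = !![-1, 0; 0, -1] := by
  rcases h with h | h
  · left; rw [h]; rfl
  · right; rw [h]; rfl

theorem negOne_ne_one : (sl2NegOne : S) ≠ 1 := sl2NegOne_ne_one (by decide)

/-! ### lifting elements of `PSL₂(11)` -/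

theorem lift3 (u : G) (h3 : u ^ 3 = 1) (h1 : u ≠ 1) : ∃ x : S, pr x = u ∧ trS x = -1 := by
  obtain ⟨x1, rfl⟩ := pr_surj u
  obtain ⟨a, b, c, d, hx, hdet⟩ := sl2_eta x1
  have hc := val_cases (pow_cases h3)
  rw [val_cube, hx] at hc
  rcases d3 a b c d hdet hc with ⟨hb, hc', had⟩ | h | h
  · exact absurd (pr_scalar hx hdet hb hc' had) h1
  · exact ⟨x1, rfl, by rw [trS_eq hx, h]⟩
  · refine ⟨sl2NegOne * x1, by rw [map_mul, pr_negOne, one_mul], ?_⟩
    rw [trS_neg, trS_eq hx, h]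

theorem lift5 (u : G) (h5 : u ^ 5 = 1) (h1 : u ≠ 1) :
    ∃ y : S, pr y = u ∧ (trS y = 3 ∨ trS y = 7) := by
  obtain ⟨y1, rfl⟩ := pr_surj u
  obtain ⟨a, b, c, d, hy, hdet⟩ := sl2_eta y1
  have hc := val_cases (pow_cases h5)
  rw [val_five, hy] at hc
  rcases d5 a b c d hdet hc with ⟨hb, hc', had⟩ | h | h | h | h
  · exact absurd (pr_scalar hy hdet hb hc' had) h1
  · exact ⟨y1, rfl, Or.inl (by rw [trS_eq hy, h])⟩
  · exact ⟨y1, rfl, Or.inr (by rw [trS_eq hy, h])⟩
  · refine ⟨sl2NegOne * y1, by rw [map_mul, pr_negOne, one_mul], Or.inl ?_⟩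
    rw [trS_neg, trS_eq hy, h]
    decide
  · refine ⟨sl2NegOne * y1, by rw [map_mul, pr_negOne, one_mul], Or.inr ?_⟩
    rw [trS_neg, trS_eq hy, h]
    decide

theorem lift2 (x y : S) (h2 : (pr x * pr y) ^ 2 = 1) (h1 : pr x * pr y ≠ 1) :
    trS (x * y) = 0 := by
  rw [← map_mul (pr : S →* G)] at h2 h1
  obtain ⟨a, b, c, d, hz, hdet⟩ := sl2_eta (x * y)
  have hc := val_cases (pow_cases h2)
  rw [val_sq, hz] at hc
  rcases d2 a b c d hdet hc with ⟨hb, hc', had⟩ | h
  · exact absurd (pr_scalar hz hdet hb hc' had) h1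
  · rw [trS_eq hz, h]

theorem rel3 {x : S} (h : trS x = -1) : x ^ 3 = 1 := by
  obtain ⟨a, b, c, d, hx, hdet⟩ := sl2_eta x
  rw [trS_eq hx] at h
  apply Subtype.ext
  rw [val_cube, hx]
  exact dpow3 a b c d hdet h

theorem rel5 {y : S} (h : trS y = 3 ∨ trS y = 7) : y ^ 5 = 1 := by
  obtain ⟨a, b, c, d, hy, hdet⟩ := sl2_eta y
  rw [trS_eq hy] at h
  apply Subtype.ext
  rw [val_five, hy]
  exact dpow5 a b c d hdet h

/-! ### the subgroup generated by a pair -/

/-- the subgroup of `PSL₂(11)` generated by the images of two elements of `SL₂(11)` -/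
def HS (x y : S) : Subgroup G := Subgroup.closure {pr x, pr y}

theorem mem_HS_left (x y : S) : pr x ∈ HS x y := by
  unfold HS
  exact Subgroup.subset_closure (Set.mem_insert _ _)

theorem mem_HS_right (x y : S) : pr y ∈ HS x y := by
  unfold HS
  exact Subgroup.subset_closure (Set.mem_insert_of_mem _ rfl)

theorem HS_hom {x y : S} (hx : trS x = -1) (hy : trS y = 3 ∨ trS y = 7)
    (hxy : trS (x * y) = 0) :
    ∃ φ : A5 →* G, Function.Injective φ ∧ φ.range = HS x y := by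
  have hx3 := rel3 hx
  have hy5 := rel5 hy
  have hxy2 := sq_of_trace_zero (x * y) hxy
  have hπ : pr (x * y) ≠ 1 := by
    intro h
    rcases pr_eq_one h with h1 | h1
    · rw [h1, mul_one] at hxy2
      exact negOne_ne_one hxy2.symm
    · rw [h1, sl2NegOne_mul_self] at hxy2
      exact negOne_ne_one hxy2.symm
  let f : PresentedGroup Cfsg.Agent.S3377.rels →* G :=
    PresentedGroup.toGroup (f := ![pr x, pr y]) (by
      intro r hr
      simp only [Cfsg.Agent.S3377.rels, Set.mem_insert_iff, Set.mem_singleton_iff] at hr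
      rcases hr with rfl | rfl | rfl
      · simp only [map_pow, FreeGroup.lift_apply_of, Matrix.cons_val_zero]
        rw [← map_pow (pr : S →* G), hx3, map_one]
      · simp only [map_pow, FreeGroup.lift_apply_of, Matrix.cons_val_one, Matrix.cons_val_zero]
        rw [← map_pow (pr : S →* G), hy5, map_one]
      · simp only [map_pow, map_mul, FreeGroup.lift_apply_of, Matrix.cons_val_one,
          Matrix.cons_val_zero]
        rw [← map_mul (pr : S →* G), pow_two, ← map_mul (pr : S →* G), hxy2, pr_negOne])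
  have hf0 : f (PresentedGroup.of 0) = pr x := by simp [f]
  have hf1 : f (PresentedGroup.of 1) = pr y := by simp [f]
  obtain ⟨e⟩ := Cfsg.Agent.S3377.result
  let φ : A5 →* G := f.comp e.symm.toMonoidHom
  have hφe : ∀ w, φ (e w) = f w := by
    intro w
    simp [φ]
  have hφ : Function.Injective φ := by
    rw [← MonoidHom.ker_eq_bot_iff]
    haveI := alternatingGroup.isSimpleGroup_five
    rcases Subgroup.Normal.eq_bot_or_eq_top (H := φ.ker) inferInstance with h | h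
    · exact h
    · exfalso
      have h1 : e (PresentedGroup.of 0 * PresentedGroup.of 1) ∈ φ.ker := by rw [h]; trivial
      rw [MonoidHom.mem_ker, hφe, map_mul, hf0, hf1, ← map_mul (pr : S →* G)] at h1
      exact hπ h1
  refine ⟨φ, hφ, ?_⟩
  have hrange : φ.range = f.range := by
    ext w
    constructor
    · rintro ⟨u, rfl⟩
      exact ⟨e.symm u, rfl⟩
    · rintro ⟨u, rfl⟩
      exact ⟨e u, hφe u⟩
  rw [hrange]
  apply le_antisymm
  · rw [MonoidHom.range_eq_map, ← PresentedGroup.closure_range_of, MonoidHom.map_closure,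
      Subgroup.closure_le]
    rintro _ ⟨_, ⟨i, rfl⟩, rfl⟩
    fin_cases i
    · exact hf0 ▸ mem_HS_left x y
    · exact hf1 ▸ mem_HS_right x y
  · unfold HS
    rw [Subgroup.closure_le]
    rintro _ (rfl | rfl)
    · exact ⟨PresentedGroup.of 0, hf0⟩
    · exact ⟨PresentedGroup.of 1, hf1⟩

theorem HS_iso {x y : S} (hx : trS x = -1) (hy : trS y = 3 ∨ trS y = 7)
    (hxy : trS (x * y) = 0) : Nonempty (HS x y ≃* A5) := by
  obtain ⟨φ, hφ, hr⟩ := HS_hom hx hy hxy
  rw [← hr]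
  exact ⟨(MonoidHom.ofInjective hφ).symm⟩

theorem card_of_iso {L : Subgroup G} (h : Nonempty (L ≃* A5)) : Nat.card L = 60 := by
  obtain ⟨e⟩ := h
  rw [Nat.card_congr e.toEquiv, Cfsg.Agent.S3377.card_A5]

theorem HS_eq {x y : S} (hx : trS x = -1) (hy : trS y = 3 ∨ trS y = 7)
    (hxy : trS (x * y) = 0) {L : Subgroup G} (hL : Nonempty (L ≃* A5))
    (h1 : pr x ∈ L) (h2 : pr y ∈ L) : HS x y = L := by
  apply Subgroup.eq_of_le_of_card_ge
  · unfold HS
    rw [Subgroup.closure_le]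
    rintro _ (rfl | rfl)
    · exact h1
    · exact h2
  · rw [card_of_iso hL, card_of_iso (HS_iso hx hy hxy)]

theorem exists_pair {L : Subgroup G} (hL : Nonempty (L ≃* A5)) :
    ∃ x y : S, trS x = -1 ∧ (trS y = 3 ∨ trS y = 7) ∧ trS (x * y) = 0 ∧
      pr x ∈ L ∧ pr y ∈ L := by
  obtain ⟨e⟩ := hL
  obtain ⟨a, ha⟩ : ∃ a : L, e a = Cfsg.Agent.S3377.a := ⟨e.symm _, e.apply_symm_apply _⟩
  obtain ⟨b, hb⟩ : ∃ b : L, e b = Cfsg.Agent.S3377.b := ⟨e.symm _, e.apply_symm_apply _⟩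
  have ha3' : a ^ 3 = 1 :=
    e.injective (by rw [map_pow, ha, map_one]; exact Cfsg.Agent.S3377.a3)
  have hb5' : b ^ 5 = 1 :=
    e.injective (by rw [map_pow, hb, map_one]; exact Cfsg.Agent.S3377.b5)
  have hab2' : (a * b) ^ 2 = 1 :=
    e.injective (by rw [map_pow, map_mul, ha, hb, map_one]; exact Cfsg.Agent.S3377.ab2)
  have ha1' : a ≠ 1 := fun h => Cfsg.Agent.S3377.a_ne (by rw [← ha, h, map_one])
  have hb1' : b ≠ 1 := fun h => Cfsg.Agent.S3377.b_ne (by rw [← hb, h, map_one])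
  have hab1' : a * b ≠ 1 :=
    fun h => Cfsg.Agent.S3377.ab_ne (by rw [← ha, ← hb, ← map_mul, h, map_one])
  have ha3 : (a : G) ^ 3 = 1 := by rw [← Subgroup.coe_pow, ha3']; rfl
  have hb5 : (b : G) ^ 5 = 1 := by rw [← Subgroup.coe_pow, hb5']; rfl
  have hab2 : ((a : G) * (b : G)) ^ 2 = 1 := by
    rw [← Subgroup.coe_mul, ← Subgroup.coe_pow, hab2']; rfl
  have ha1 : (a : G) ≠ 1 := fun h => ha1' (Subtype.ext h)
  have hb1 : (b : G) ≠ 1 := fun h => hb1' (Subtype.ext h)
  have hab1 : (a : G) * (b : G) ≠ 1 := fun h => hab1' (Subtype.ext h)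
  obtain ⟨x, hx, hxt⟩ := lift3 (a : G) ha3 ha1
  obtain ⟨y, hy, hyt⟩ := lift5 (b : G) hb5 hb1
  refine ⟨x, y, hxt, hyt, lift2 x y (by rw [hx, hy]; exact hab2) (by rw [hx, hy]; exact hab1),
    ?_, ?_⟩
  · rw [hx]; exact a.2
  · rw [hy]; exact b.2

/-! ### normal forms -/

theorem nf_gen (lam mu : K) (D X0 X2 : S)
    (hD : (D : Mt) = !![lam, 0; 0, mu])
    (hnf : ∀ p q r : K, p * (lam + mu - p) - q * r = 1 →
      ∃ Q ∈ cand lam mu p q r, Q 0 0 * Q 1 1 - Q 0 1 * Q 1 0 = 1 ∧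
        Q * !![p, q; r, lam + mu - p] = !![lam, 0; 0, mu] * Q)
    (hx : ∀ a b c d : K, a * d - b * c = 1 → a + d = -1 → lam * a + mu * d = 0 →
      ∃ s : K, s * s⁻¹ - 0 * 0 = 1 ∧
        (!![s, 0; 0, s⁻¹] : Mt) * !![lam, 0; 0, mu] = !![lam, 0; 0, mu] * !![s, 0; 0, s⁻¹] ∧
        ((!![s, 0; 0, s⁻¹] : Mt) * !![a, b; c, d] = (X0 : Mt) * !![s, 0; 0, s⁻¹] ∨
          (!![s, 0; 0, s⁻¹] : Mt) * !![a, b; c, d] = (X2 : Mt) * !![s, 0; 0, s⁻¹]))
    (x y : S) (hxt : trS x = -1) (hyt : trS y = lam + mu) (hxy : trS (x * y) = 0) :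
    ∃ g : S, g * y * g⁻¹ = D ∧ (g * x * g⁻¹ = X0 ∨ g * x * g⁻¹ = X2) := by
  obtain ⟨p, q, r, s, hy, hdet⟩ := sl2_eta y
  rw [trS_eq hy] at hyt
  have hs : s = lam + mu - p := by linear_combination hyt
  rw [hs] at hy hdet
  obtain ⟨Q, -, hQdet, hQ⟩ := hnf p q r hdet
  let g1 : S := ⟨Q, by rw [Matrix.det_fin_two]; exact hQdet⟩
  have hg1 : g1 * y = D * g1 := by
    apply Subtype.ext
    have e1 : ((g1 * y : S) : Mt) = Q * (y : Mt) := rfl
    have e2 : ((D * g1 : S) : Mt) = (D : Mt) * Q := rfl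
    rw [e1, e2, hy, hD]
    exact hQ
  have hg1' : g1 * y * g1⁻¹ = D := by rw [hg1, mul_inv_cancel_right]
  obtain ⟨a, b, c, d, hx', hdet'⟩ := sl2_eta (g1 * x * g1⁻¹)
  have ht1 : a + d = -1 := by rw [← trS_eq hx', trS_conj, hxt]
  have ht2 : lam * a + mu * d = 0 := by
    have h1 : trS (g1 * x * g1⁻¹ * D) = 0 := by
      rw [← hg1']
      have h0 : g1 * x * g1⁻¹ * (g1 * y * g1⁻¹) = g1 * (x * y) * g1⁻¹ := by group
      rw [h0, trS_conj, hxy]
    have e1 : ((g1 * x * g1⁻¹ * D : S) : Mt) = ((g1 * x * g1⁻¹ : S) : Mt) * (D : Mt) := rfl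
    unfold trS at h1
    rw [e1, hx', hD, Matrix.mul_fin_two, Matrix.trace_fin_two_of] at h1
    linear_combination h1
  obtain ⟨t, htdet, htD, htx⟩ := hx a b c d hdet' ht1 ht2
  let g2 : S := sl2mk t 0 0 t⁻¹ htdet
  have hg2D : g2 * D = D * g2 := by
    apply Subtype.ext
    have e1 : ((g2 * D : S) : Mt) = !![t, 0; 0, t⁻¹] * (D : Mt) := rfl
    have e2 : ((D * g2 : S) : Mt) = (D : Mt) * !![t, 0; 0, t⁻¹] := rfl
    rw [e1, e2, hD]
    exact htD
  refine ⟨g2 * g1, ?_, ?_⟩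
  · have h0 : g2 * g1 * y * (g2 * g1)⁻¹ = g2 * (g1 * y * g1⁻¹) * g2⁻¹ := by group
    rw [h0, hg1', hg2D, mul_inv_cancel_right]
  · have h0 : g2 * g1 * x * (g2 * g1)⁻¹ = g2 * (g1 * x * g1⁻¹) * g2⁻¹ := by group
    rw [h0]
    rcases htx with h | h
    · left
      have h3 : g2 * (g1 * x * g1⁻¹) = X0 * g2 := by
        apply Subtype.ext
        have e1 : ((g2 * (g1 * x * g1⁻¹) : S) : Mt) =
            !![t, 0; 0, t⁻¹] * ((g1 * x * g1⁻¹ : S) : Mt) := rfl
        have e2 : ((X0 * g2 : S) : Mt) = (X0 : Mt) * !![t, 0; 0, t⁻¹] := rfl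
        rw [e1, e2, hx']
        exact h
      rw [h3, mul_inv_cancel_right]
    · right
      have h3 : g2 * (g1 * x * g1⁻¹) = X2 * g2 := by
        apply Subtype.ext
        have e1 : ((g2 * (g1 * x * g1⁻¹) : S) : Mt) =
            !![t, 0; 0, t⁻¹] * ((g1 * x * g1⁻¹ : S) : Mt) := rfl
        have e2 : ((X2 * g2 : S) : Mt) = (X2 : Mt) * !![t, 0; 0, t⁻¹] := rfl
        rw [e1, e2, hx']
        exact h
      rw [h3, mul_inv_cancel_right]

/-- the standard element of order five, trace 3 -/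
def y0 : S := sl2mk 9 0 0 5 (by decide)
/-- its inverse -/
def y0i : S := sl2mk 5 0 0 9 (by decide)
/-- first standard element of order three -/
def x0 : S := sl2mk 4 1 1 6 (by decide)
/-- second standard element of order three -/
def x2 : S := sl2mk 4 2 6 6 (by decide)
/-- the standard element of order five, trace 7 -/
def y7 : S := sl2mk 4 0 0 3 (by decide)
/-- its inverse -/
def y7i : S := sl2mk 3 0 0 4 (by decide)
/-- first standard element of order three for trace 7 -/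
def x7 : S := sl2mk 3 1 9 7 (by decide)
/-- its inverse -/
def x7i : S := sl2mk 7 (-1) (-9) 3 (by decide)
/-- second standard element of order three for trace 7 -/
def x72 : S := sl2mk 3 2 10 7 (by decide)
/-- its inverse -/
def x72i : S := sl2mk 7 (-2) (-10) 3 (by decide)

theorem y0_val : (y0 : Mt) = !![9, 0; 0, 5] := rfl
theorem y0i_val : (y0i : Mt) = !![5, 0; 0, 9] := rfl
theorem x0_val : (x0 : Mt) = !![4, 1; 1, 6] := rfl
theorem x2_val : (x2 : Mt) = !![4, 2; 6, 6] := rfl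

theorem y0i_eq : y0⁻¹ = y0i := inv_eq_of_mul_eq_one_right (by decide +kernel)
theorem y7i_eq : y7⁻¹ = y7i := inv_eq_of_mul_eq_one_right (by decide +kernel)
theorem x7i_eq : x7⁻¹ = x7i := inv_eq_of_mul_eq_one_right (by decide +kernel)
theorem x72i_eq : x72⁻¹ = x72i := inv_eq_of_mul_eq_one_right (by decide +kernel)

theorem nf3 (x y : S) (hxt : trS x = -1) (hyt : trS y = 3) (hxy : trS (x * y) = 0) :
    ∃ g : S, g * y * g⁻¹ = y0 ∧ (g * x * g⁻¹ = x0 ∨ g * x * g⁻¹ = x2) :=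
  nf_gen 9 5 y0 x0 x2 rfl dnf3 dx3 x y hxt (by rw [hyt]; decide) hxy

theorem nf7 (x y : S) (hxt : trS x = -1) (hyt : trS y = 7) (hxy : trS (x * y) = 0) :
    ∃ g : S, g * y * g⁻¹ = y7 ∧ (g * x * g⁻¹ = x7 ∨ g * x * g⁻¹ = x72) :=
  nf_gen 4 3 y7 x7 x72 rfl dnf7 dx7 x y hxt (by rw [hyt]; decide) hxy

theorem t0 : trS x0 = -1 ∧ trS y0 = 3 ∧ trS (x0 * y0) = 0 ∧ trS x2 = -1 ∧ trS (x2 * y0) = 0 ∧
    trS (y0 * y0) = 7 := by
  decide +kernel

theorem t7 : trS x7 = -1 ∧ trS y7 = 7 ∧ trS (x7 * y7) = 0 ∧ trS x72 = -1 ∧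
    trS (x72 * y7) = 0 := by
  decide +kernel

theorem t7a : trS (x7 * y7 * y7 * x7i * y7i) = -1 ∧ trS (y7 * y7) = 3 ∧
    trS (x7 * y7 * y7 * x7i * y7i * (y7 * y7)) = 0 := by
  decide +kernel

theorem t7b : trS (x72 * y7 * y7 * x72i * y7i) = -1 ∧ trS (y7 * y7) = 3 ∧
    trS (x72 * y7 * y7 * x72i * y7i * (y7 * y7)) = 0 := by
  decide +kernel

/-! ### conjugation -/

theorem conj_HS (g x y : S) :
    MulAut.conj (pr g) • HS x y = HS (g * x * g⁻¹) (g * y * g⁻¹) := by
  unfold HS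
  rw [Subgroup.smul_closure, Set.smul_set_insert, Set.smul_set_singleton]
  simp only [MulAut.smul_def, MulAut.conj_apply, map_mul, map_inv]

theorem conj_to_H (x y : S) (hxt : trS x = -1) (hyt : trS y = 3 ∨ trS y = 7)
    (hxy : trS (x * y) = 0) :
    ∃ g : G, MulAut.conj g • HS x y = HS x0 y0 ∨ MulAut.conj g • HS x y = HS x2 y0 := by
  rcases hyt with h3 | h7
  · obtain ⟨g, hgy, hgx⟩ := nf3 x y hxt h3 hxy
    refine ⟨pr g, ?_⟩
    rw [conj_HS, hgy]
    rcases hgx with h | h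
    · left; rw [h]
    · right; rw [h]
  · obtain ⟨g, hgy, hgx⟩ := nf7 x y hxt h7 hxy
    have key : ∀ x' : S, (x' = x7 ∨ x' = x72) →
        ∃ g' : G, MulAut.conj g' • HS x' y7 = HS x0 y0 ∨
          MulAut.conj g' • HS x' y7 = HS x2 y0 := by
      intro x' hx'
      have hx't : trS x' = -1 := by
        rcases hx' with h | h
        · rw [h]; exact t7.1
        · rw [h]; exact t7.2.2.2.1
      have hy't : trS y7 = 7 := t7.2.1
      have hxy't : trS (x' * y7) = 0 := by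
        rcases hx' with h | h
        · rw [h]; exact t7.2.2.1
        · rw [h]; exact t7.2.2.2.2
      obtain ⟨h1, h2, h3⟩ : trS (x' * y7 * y7 * x'⁻¹ * y7⁻¹) = -1 ∧ trS (y7 * y7) = 3 ∧
          trS (x' * y7 * y7 * x'⁻¹ * y7⁻¹ * (y7 * y7)) = 0 := by
        rcases hx' with h | h
        · rw [h, x7i_eq, y7i_eq]; exact t7a
        · rw [h, x72i_eq, y7i_eq]; exact t7b
      obtain ⟨g', hg'y, hg'x⟩ := nf3 _ _ h1 h2 h3
      have hX : pr x' ∈ HS x' y7 := mem_HS_left _ _
      have hY : pr y7 ∈ HS x' y7 := mem_HS_right _ _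
      have hsub : HS (x' * y7 * y7 * x'⁻¹ * y7⁻¹) (y7 * y7) = HS x' y7 := by
        apply HS_eq h1 (Or.inl h2) h3 (HS_iso hx't (Or.inr hy't) hxy't)
        · rw [map_mul, map_mul, map_mul, map_mul, map_inv, map_inv]
          exact mul_mem (mul_mem (mul_mem (mul_mem hX hY) hY) (inv_mem hX)) (inv_mem hY)
        · rw [map_mul]
          exact mul_mem hY hY
      refine ⟨pr g', ?_⟩
      rw [← hsub, conj_HS, hg'y]
      rcases hg'x with h | h
      · left; rw [h]
      · right; rw [h]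
    obtain ⟨g', hg'⟩ := key (g * x * g⁻¹) hgx
    refine ⟨g' * pr g, ?_⟩
    rw [map_mul MulAut.conj, mul_smul, conj_HS, hgy]
    exact hg'

/-! ### the two classes are different -/

theorem F1' {L : Subgroup G} (e : L ≃* A5) (u : G) (hu : u ∈ L) :
    u ^ 2 = 1 ∨ u ^ 3 = 1 ∨ u ^ 5 = 1 := by
  have key : ∀ k : ℕ, e ⟨u, hu⟩ ^ k = 1 → u ^ k = 1 := by
    intro k hk
    have h1 : (⟨u, hu⟩ : L) ^ k = 1 := e.injective (by rw [map_pow, hk, map_one])
    exact congrArg Subtype.val h1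
  rcases F1 (e ⟨u, hu⟩) with h | h | h
  · exact Or.inl (key 2 h)
  · exact Or.inr (Or.inl (key 3 h))
  · exact Or.inr (Or.inr (key 5 h))

theorem F2' {L : Subgroup G} (e : L ≃* A5) (u w : G) (hu : u ∈ L) (hw : w ∈ L)
    (hu5 : u ^ 5 = 1) (hu1 : u ≠ 1) (hw5 : w ^ 5 = 1) (hw1 : w ≠ 1) :
    ∃ r ∈ L, r * u * r⁻¹ = w ∨ r * u ^ 2 * r⁻¹ = w := by
  have h1 : e ⟨u, hu⟩ ^ 5 = 1 := by
    rw [← map_pow]
    have h0 : (⟨u, hu⟩ : L) ^ 5 = 1 := Subtype.ext hu5
    rw [h0, map_one]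
  have h2 : e ⟨u, hu⟩ ≠ 1 := by
    intro h
    have h0 : (⟨u, hu⟩ : L) = 1 := e.injective (by rw [h, map_one])
    exact hu1 (congrArg Subtype.val h0)
  have h3 : e ⟨w, hw⟩ ^ 5 = 1 := by
    rw [← map_pow]
    have h0 : (⟨w, hw⟩ : L) ^ 5 = 1 := Subtype.ext hw5
    rw [h0, map_one]
  have h4 : e ⟨w, hw⟩ ≠ 1 := by
    intro h
    have h0 : (⟨w, hw⟩ : L) = 1 := e.injective (by rw [h, map_one])
    exact hw1 (congrArg Subtype.val h0)
  obtain ⟨ρ, hρ⟩ := F2 _ h1 h2 _ h3 h4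
  refine ⟨(e.symm ρ : L), (e.symm ρ).2, ?_⟩
  rcases hρ with h | h
  · left
    have h0 : e.symm ρ * ⟨u, hu⟩ * (e.symm ρ)⁻¹ = ⟨w, hw⟩ :=
      e.injective (by rw [map_mul, map_mul, map_inv, e.apply_symm_apply]; exact h)
    exact congrArg Subtype.val h0
  · right
    have h0 : e.symm ρ * ⟨u, hu⟩ ^ 2 * (e.symm ρ)⁻¹ = ⟨w, hw⟩ :=
      e.injective (by rw [map_mul, map_mul, map_inv, map_pow, e.apply_symm_apply]; exact h)
    exact congrArg Subtype.val h0

theorem not_conj (gb : G) : MulAut.conj gb • HS x0 y0 ≠ HS x2 y0 := by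
  intro hconj
  obtain ⟨g, rfl⟩ := pr_surj gb
  obtain ⟨hx0t, hy0t, hx0y0, hx2t, hx2y0, hy0sq⟩ := t0
  obtain ⟨e2⟩ := HS_iso hx2t (Or.inl hy0t) hx2y0
  have mem_conj : ∀ z : S, pr z ∈ HS x0 y0 → pr (g * z * g⁻¹) ∈ HS x2 y0 := by
    intro z hz
    rw [← hconj]
    have h1 : MulAut.conj (pr g) • pr z ∈ MulAut.conj (pr g) • HS x0 y0 :=
      Subgroup.smul_mem_pointwise_smul _ _ _ hz
    have h2 : MulAut.conj (pr g) • pr z = pr (g * z * g⁻¹) := by
      rw [MulAut.smul_def, MulAut.conj_apply, map_mul, map_mul, map_inv]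
    rw [h2] at h1
    exact h1
  have hy0H2 : pr y0 ∈ HS x2 y0 := mem_HS_right _ _
  have hx2H2 : pr x2 ∈ HS x2 y0 := mem_HS_left _ _
  have hgy : pr (g * y0 * g⁻¹) ∈ HS x2 y0 := mem_conj y0 (mem_HS_right _ _)
  have hgx : pr (g * x0 * g⁻¹) ∈ HS x2 y0 := mem_conj x0 (mem_HS_left _ _)
  have hy05 : y0 ^ 5 = 1 := rel5 (Or.inl hy0t)
  have hne : ∀ z : S, trS z = 3 → pr z ≠ 1 := by
    intro z hz h
    rcases pr_eq_one h with h1 | h1
    · rw [h1] at hz
      revert hz
      decide +kernel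
    · rw [h1] at hz
      revert hz
      decide +kernel
  have h5a : pr (g * y0 * g⁻¹) ^ 5 = 1 := by
    rw [← map_pow (pr : S →* G), conj_pow, hy05, mul_one, mul_inv_cancel, map_one]
  have h5b : pr y0 ^ 5 = 1 := by rw [← map_pow (pr : S →* G), hy05, map_one]
  obtain ⟨r, hrH, hr⟩ := F2' e2 (pr (g * y0 * g⁻¹)) (pr y0) hgy hy0H2 h5a
    (hne _ (by rw [trS_conj]; exact hy0t)) h5b (hne _ hy0t)
  obtain ⟨h, rfl⟩ := pr_surj r
  obtain ⟨v, hvdef⟩ : ∃ v : S, v = h * g := ⟨_, rfl⟩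
  have hv : v * y0 * v⁻¹ = y0 := by
    have e1 : pr h * pr (g * y0 * g⁻¹) * (pr h)⁻¹ = pr (v * y0 * v⁻¹) := by
      rw [hvdef, ← map_inv (pr : S →* G), ← map_mul (pr : S →* G), ← map_mul (pr : S →* G)]
      exact congrArg pr (by group)
    have e3 : pr h * pr (g * y0 * g⁻¹) ^ 2 * (pr h)⁻¹ = pr (v * (y0 * y0) * v⁻¹) := by
      rw [hvdef, ← map_pow (pr : S →* G), ← map_inv (pr : S →* G), ← map_mul (pr : S →* G),
        ← map_mul (pr : S →* G)]
      exact congrArg pr (by rw [conj_pow, pow_two]; group)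
    rcases hr with hr | hr
    · rw [e1] at hr
      rcases (pr_eq_iff _ _).mp hr with h1 | h1
      · exact h1
      · exfalso
        have h0 := congrArg trS h1
        rw [trS_conj, trS_neg, hy0t] at h0
        revert h0
        decide
    · exfalso
      rw [e3] at hr
      rcases (pr_eq_iff _ _).mp hr with h1 | h1
      · have h0 := congrArg trS h1
        rw [trS_conj, hy0sq, hy0t] at h0
        revert h0
        decide
      · have h0 := congrArg trS h1
        rw [trS_conj, trS_neg, hy0sq, hy0t] at h0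
        revert h0
        decide
  have hcomm : v * y0 = y0 * v := by
    calc v * y0 = v * y0 * v⁻¹ * v := by group
      _ = y0 * v := by rw [hv]
  obtain ⟨a, b, c, d, hvm, hdet⟩ := sl2_eta v
  have hvi : ((v⁻¹ : S) : Mt) = !![d, -b; -c, a] := by
    rw [Matrix.SpecialLinearGroup.coe_inv, hvm, Matrix.adjugate_fin_two_of]
  have hcommM : (!![a, b; c, d] : Mt) * !![9, 0; 0, 5] = !![9, 0; 0, 5] * !![a, b; c, d] := by
    have h0 := congrArg Subtype.val hcomm
    simp only [Matrix.SpecialLinearGroup.coe_mul, hvm, y0_val] at h0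
    exact h0
  have hzH : pr (v * x0 * v⁻¹) ∈ HS x2 y0 := by
    have e1 : pr (v * x0 * v⁻¹) = pr h * pr (g * x0 * g⁻¹) * (pr h)⁻¹ := by
      rw [hvdef, ← map_inv (pr : S →* G), ← map_mul (pr : S →* G), ← map_mul (pr : S →* G)]
      exact congrArg pr (by group)
    rw [e1]
    exact mul_mem (mul_mem hrH hgx) (inv_mem hrH)
  have hy0iH : pr y0i ∈ HS x2 y0 := by
    rw [← y0i_eq, map_inv]
    exact inv_mem hy0H2
  have final : ∀ W : S, pr W ∈ HS x2 y0 → (trS W = 5 ∨ trS W = 6) → False := by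
    intro W hW ht
    obtain ⟨a', b', c', d', hWm, hdet'⟩ := sl2_eta W
    rw [trS_eq hWm] at ht
    obtain ⟨n2, n3, n5⟩ := dno a' b' c' d' hdet' ht
    rcases F1' e2 (pr W) hW with h0 | h0 | h0
    · apply n2
      have h9 := val_cases (pow_cases h0)
      rwa [val_sq, hWm] at h9
    · apply n3
      have h9 := val_cases (pow_cases h0)
      rwa [val_cube, hWm] at h9
    · apply n5
      have h9 := val_cases (pow_cases h0)
      rwa [val_five, hWm] at h9
  rcases dkey a b c d hdet hcommM with ht | ht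
  · apply final (v * x0 * v⁻¹ * x2 * y0i)
    · rw [map_mul, map_mul]
      exact mul_mem (mul_mem hzH hx2H2) hy0iH
    · have e1 : trS (v * x0 * v⁻¹ * x2 * y0i) = Matrix.trace (w1 a b c d) := by
        unfold trS w1
        simp only [Matrix.SpecialLinearGroup.coe_mul, hvm, hvi, x0_val, x2_val, y0i_val]
      rw [e1]
      exact ht
  · apply final (v * x0 * v⁻¹ * y0i * x2)
    · rw [map_mul, map_mul]
      exact mul_mem (mul_mem hzH hy0iH) hx2H2
    · have e1 : trS (v * x0 * v⁻¹ * y0i * x2) = Matrix.trace (w2 a b c d) := by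
        unfold trS w2
        simp only [Matrix.SpecialLinearGroup.coe_mul, hvm, hvi, x0_val, x2_val, y0i_val]
      rw [e1]
      exact ht

/-! ### counting -/

theorem card_G : Nat.card G = 660 := by
  have h := psl2_card_odd (F := K) (by decide)
  rw [ZMod.card] at h
  have e : (11 : ℕ) * (11 ^ 2 - 1) = 1320 := by norm_num
  rw [e] at h
  have h' : Nat.card G * 2 = 1320 := h
  omega

instance simpG : IsSimpleGroup G := by
  apply Matrix.ProjectiveSpecialLinearGroup.rank_two_simple'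
  exact ⟨2, by decide, by decide⟩

/-- the conjugates of a subgroup -/
def cls (H : Subgroup G) : Set (Subgroup G) := Set.range (fun g : G => MulAut.conj g • H)

theorem cls_ncard {H : Subgroup G} (hH : Nonempty (H ≃* A5)) : (cls H).ncard = 11 := by
  letI : MulAction G (Subgroup G) := MulAction.compHom (Subgroup G) (MulAut.conj : G →* MulAut G)
  have horb : cls H = MulAction.orbit G H := rfl
  rw [horb, ← MulAction.index_stabilizer]
  have hle : H ≤ MulAction.stabilizer G H := by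
    intro h hh
    rw [MulAction.mem_stabilizer_iff]
    exact Subgroup.conj_smul_eq_self_of_mem hh
  have hcard : Nat.card H = 60 := card_of_iso hH
  have h1 : Nat.card H ∣ Nat.card (MulAction.stabilizer G H) := Subgroup.card_dvd_of_le hle
  have h2 := (MulAction.stabilizer G H).card_mul_index
  rw [card_G] at h2
  have h3 : Nat.card (MulAction.stabilizer G H) ≠ 660 := by
    intro h660
    have htop : MulAction.stabilizer G H = ⊤ :=
      (Subgroup.card_eq_iff_eq_top _).mp (h660.trans card_G.symm)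
    have hn : H.Normal := by
      constructor
      intro n hn g
      have hg : MulAut.conj g • H = H := by
        have h0 : g ∈ MulAction.stabilizer G H := by rw [htop]; trivial
        exact MulAction.mem_stabilizer_iff.mp h0
      rw [← hg]
      have h0 := Subgroup.smul_mem_pointwise_smul n (MulAut.conj g) H hn
      rwa [MulAut.smul_def, MulAut.conj_apply] at h0
    rcases hn.eq_bot_or_eq_top with h | h
    · rw [h, Subgroup.card_bot] at hcard
      omega
    · rw [h, Subgroup.card_top, card_G] at hcard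
      omega
  rw [hcard] at h1
  obtain ⟨k, hk⟩ := h1
  rw [hk] at h2 h3
  have h4 : k * (MulAction.stabilizer G H).index = 11 := by
    have h0 : 60 * (k * (MulAction.stabilizer G H).index) = 60 * 11 := by
      rw [← mul_assoc]; exact h2
    exact Nat.eq_of_mul_eq_mul_left (by norm_num) h0
  have h5 : k ∣ 11 := Dvd.intro _ h4
  have h6 : k = 1 ∨ k = 11 := (Nat.dvd_prime (by norm_num)).mp h5
  rcases h6 with h | h
  · rw [h] at h4
    omega
  · rw [h] at h3
    omega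

/-- the statement, for an arbitrary group -/
def Stmt (G' : Type*) [Group G'] : Prop :=
  Nat.card {H : Subgroup G' // Nonempty (H ≃* A5)} = 22 ∧
    ∃ H K' : Subgroup G', Nonempty (H ≃* A5) ∧ Nonempty (K' ≃* A5) ∧
      (∀ g : G', MulAut.conj g • H ≠ K') ∧
      ∀ L : Subgroup G', Nonempty (L ≃* A5) →
        ∃ g : G', MulAut.conj g • L = H ∨ MulAut.conj g • L = K'

theorem main11 : Stmt G := by
  obtain ⟨hx0t, hy0t, hx0y0, hx2t, hx2y0, -⟩ := t0
  have hH1 : Nonempty (HS x0 y0 ≃* A5) := HS_iso hx0t (Or.inl hy0t) hx0y0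
  have hH2 : Nonempty (HS x2 y0 ≃* A5) := HS_iso hx2t (Or.inl hy0t) hx2y0
  have hall : ∀ L : Subgroup G, Nonempty (L ≃* A5) →
      ∃ g : G, MulAut.conj g • L = HS x0 y0 ∨ MulAut.conj g • L = HS x2 y0 := by
    intro L hL
    obtain ⟨x, y, hx, hy, hxy, hxL, hyL⟩ := exists_pair hL
    rw [← HS_eq hx hy hxy hL hxL hyL]
    exact conj_to_H x y hx hy hxy
  refine ⟨?_, HS x0 y0, HS x2 y0, hH1, hH2, not_conj, hall⟩
  have hback : ∀ (g : G) (L M : Subgroup G), MulAut.conj g • L = M →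
      MulAut.conj g⁻¹ • M = L := by
    intro g L M h
    rw [← h, ← mul_smul, ← map_mul MulAut.conj, inv_mul_cancel, map_one, one_smul]
  have hset : {H : Subgroup G | Nonempty (H ≃* A5)} = cls (HS x0 y0) ∪ cls (HS x2 y0) := by
    ext L
    constructor
    · intro hL
      obtain ⟨g, h | h⟩ := hall L hL
      · exact Or.inl ⟨g⁻¹, hback g _ _ h⟩
      · exact Or.inr ⟨g⁻¹, hback g _ _ h⟩
    · rintro (⟨g, rfl⟩ | ⟨g, rfl⟩)
      · obtain ⟨e⟩ := hH1
        exact ⟨(Subgroup.equivSMul (MulAut.conj g) (HS x0 y0)).symm.trans e⟩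
      · obtain ⟨e⟩ := hH2
        exact ⟨(Subgroup.equivSMul (MulAut.conj g) (HS x2 y0)).symm.trans e⟩
  have hdisj : Disjoint (cls (HS x0 y0)) (cls (HS x2 y0)) := by
    rw [Set.disjoint_left]
    intro L h1 h2
    obtain ⟨g1, hg1⟩ := h1
    obtain ⟨g2, hg2⟩ := h2
    have hg1' : MulAut.conj g1 • HS x0 y0 = L := hg1
    have hg2' : MulAut.conj g2 • HS x2 y0 = L := hg2
    apply not_conj (g2⁻¹ * g1)
    rw [map_mul MulAut.conj, mul_smul, hg1']
    exact hback g2 _ _ hg2'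
  have hcard : Nat.card {H : Subgroup G // Nonempty (H ≃* A5)} =
      ({H : Subgroup G | Nonempty (H ≃* A5)}).ncard := Nat.card_coe_set_eq _
  rw [hcard, hset, Set.ncard_union_eq hdisj (Set.toFinite _) (Set.toFinite _), cls_ncard hH1,
    cls_ncard hH2]

/-! ### transport -/

theorem map_conj {G1 G2 : Type*} [Group G1] [Group G2] (Φ : G1 ≃* G2) (g : G1)
    (H : Subgroup G1) :
    (MulAut.conj g • H).map Φ.toMonoidHom = MulAut.conj (Φ g) • H.map Φ.toMonoidHom := by
  have e1 : MulAut.conj g • H = H.map (MulAut.conj g).toMonoidHom := rfl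
  have e2 : MulAut.conj (Φ g) • H.map Φ.toMonoidHom =
      (H.map Φ.toMonoidHom).map (MulAut.conj (Φ g)).toMonoidHom := rfl
  rw [e1, e2, Subgroup.map_map, Subgroup.map_map]
  congr 1
  ext h
  simp [MulAut.conj_apply]

theorem stmt_congr {G1 G2 : Type*} [Group G1] [Group G2] (Φ : G1 ≃* G2) (h : Stmt G1) :
    Stmt G2 := by
  obtain ⟨hc, H, K', hH, hK, hne, hall⟩ := h
  have iso : ∀ L : Subgroup G1,
      Nonempty (L ≃* A5) ↔ Nonempty (L.map Φ.toMonoidHom ≃* A5) := fun L =>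
    ⟨fun ⟨e⟩ => ⟨(Φ.subgroupMap L).symm.trans e⟩, fun ⟨e⟩ => ⟨(Φ.subgroupMap L).trans e⟩⟩
  refine ⟨?_, H.map Φ.toMonoidHom, K'.map Φ.toMonoidHom, (iso H).mp hH, (iso K').mp hK, ?_, ?_⟩
  · rw [← hc]
    apply Nat.card_congr
    exact (Equiv.subtypeEquiv (Φ.mapSubgroup).toEquiv (fun L => iso L)).symm
  · intro g hg
    obtain ⟨g1, rfl⟩ := Φ.surjective g
    rw [← map_conj] at hg
    exact hne g1 (Subgroup.map_injective Φ.injective hg)
  · intro L hL
    obtain ⟨L1, rfl⟩ : ∃ L1 : Subgroup G1, L1.map Φ.toMonoidHom = L :=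
      ⟨L.comap Φ.toMonoidHom, Subgroup.map_comap_eq_self_of_surjective Φ.surjective L⟩
    obtain ⟨g, hg⟩ := hall L1 ((iso L1).mpr hL)
    refine ⟨Φ g, ?_⟩
    rw [← map_conj]
    rcases hg with h | h
    · left; rw [h]
    · right; rw [h]

theorem exists_equiv {F : Type*} [Field F] [Fintype F] (hF : Fintype.card F = 11) :
    Nonempty (G ≃* Matrix.ProjectiveSpecialLinearGroup (Fin 2) F) := by
  let e11 : ZMod 11 ≃+* F := ZMod.ringEquivOfPrime F (by norm_num) hF
  have h2 : (2 : F) ≠ 0 := by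
    intro h
    have h0 : e11 2 = e11 0 := by rw [map_zero, map_ofNat]; exact h
    exact absurd (e11.injective h0) (by decide)
  let f : K →+* F := (e11 : ZMod 11 →+* F)
  have hker := Cfsg.Agent.S0805.pslMap_ker f
  let ε : G ≃* (Cfsg.Agent.S0805.pslMap f).range :=
    (QuotientGroup.quotientMulEquivOfEq hker).symm.trans
      (QuotientGroup.quotientKerEquivRange (Cfsg.Agent.S0805.pslMap f))
  have hcardF : Nat.card (Matrix.ProjectiveSpecialLinearGroup (Fin 2) F) = 660 := by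
    have h := psl2_card_odd (F := F) h2
    rw [hF] at h
    have e : (11 : ℕ) * (11 ^ 2 - 1) = 1320 := by norm_num
    rw [e] at h
    omega
  haveI : Finite (Matrix.ProjectiveSpecialLinearGroup (Fin 2) F) :=
    Nat.finite_of_card_ne_zero (by rw [hcardF]; norm_num)
  have htop : (Cfsg.Agent.S0805.pslMap f).range = ⊤ := by
    apply (Subgroup.card_eq_iff_eq_top _).mp
    rw [← Nat.card_congr ε.toEquiv, card_G, hcardF]
  exact ⟨ε.trans ((MulEquiv.subgroupCongr htop).trans Subgroup.topEquiv)⟩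

theorem main {F : Type*} [Field F] [Fintype F] (hF : Fintype.card F = 11) :
    Stmt (Matrix.ProjectiveSpecialLinearGroup (Fin 2) F) := by
  obtain ⟨Φ⟩ := exists_equiv hF
  exact stmt_congr Φ main11

end Cfsg.Agent.Helper1.A5L11
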