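import Mathlib
import Cfsg.Agent.Helper19.PGroup
import Cfsg.Agent.Helper5.Grp

/-!
Baer–Suzuki theorem (Alperin–Lyons proof), in element form: a conjugation-invariant set `D`
any two of whose elements generate a `p`-group generates a `p`-group.
-/

set_option autoImplicit false

namespace Cfsg.Agent.Helper1

theorem conj_closure {G : Type*} [Group G] (E : Set G) (y : G)
    (hE : ∀ a ∈ E, y * a * y⁻¹ ∈ E) :
    ∀ h ∈ Subgroup.closure E, y * h * y⁻¹ ∈ Subgroup.closure E := by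
  have h1 : Subgroup.closure E ≤ (Subgroup.closure E).comap (MulAut.conj y).toMonoidHom := by
    rw [Subgroup.closure_le]
    intro a ha
    show y * a * y⁻¹ ∈ Subgroup.closure E
    exact Subgroup.subset_closure (hE a ha)
  exact fun h hh => h1 hh

theorem closure_normal_of_conj {G : Type*} [Group G] (D : Set G)
    (hD : ∀ a ∈ D, ∀ g : G, g * a * g⁻¹ ∈ D) : (Subgroup.closure D).Normal :=
  ⟨fun n hn g => conj_closure D g (fun a ha => hD a ha g) n hn⟩

theorem bs_card_eq {G : Type*} [Group G] [Finite G] (p : ℕ) [Fact p.Prime] (D : Set G)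
    (hD : ∀ a ∈ D, ∀ g : G, g * a * g⁻¹ ∈ D) (S T : Sylow p G) :
    (D ∩ ((S : Subgroup G) : Set G)).ncard = (D ∩ ((T : Subgroup G) : Set G)).ncard := by
  obtain ⟨g, hg⟩ := MulAction.exists_smul_eq G S T
  have himg : (fun x => g * x * g⁻¹) '' (D ∩ ((S : Subgroup G) : Set G)) =
      D ∩ ((T : Subgroup G) : Set G) := by
    ext y
    constructor
    · rintro ⟨x, ⟨hxD, hxS⟩, rfl⟩
      refine ⟨hD x hxD g, ?_⟩
      show g * x * g⁻¹ ∈ (T : Subgroup G)
      rw [← hg, Cfsg.Agent.Helper5.mem_sylow_smul]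
      have e : g⁻¹ * (g * x * g⁻¹) * g = x := by group
      rw [e]; exact hxS
    · rintro ⟨hyD, hyT⟩
      refine ⟨g⁻¹ * y * g, ⟨?_, ?_⟩, by group⟩
      · have h1 := hD y hyD g⁻¹
        simpa using h1
      · have h2 : y ∈ ((g • S : Sylow p G) : Subgroup G) := by rw [hg]; exact hyT
        exact (Cfsg.Agent.Helper5.mem_sylow_smul g S y).mp h2
  have hinj : Function.Injective (fun x : G => g * x * g⁻¹) :=
    fun a b hab => by simpa using hab
  rw [← himg, Set.ncard_image_of_injective _ hinj]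

theorem bs_normalizer {G : Type*} [Group G] [Finite G] (p : ℕ) [Fact p.Prime] (D : Set G)
    (hD : ∀ a ∈ D, ∀ g : G, g * a * g⁻¹ ∈ D) (S : Sylow p G) (P : Subgroup G)
    (hPS : P ≤ (S : Subgroup G))
    (hP : P = Subgroup.closure (D ∩ (P : Set G)))
    (hne : ¬ (D ∩ ((S : Subgroup G) : Set G) ⊆ (P : Set G))) :
    ∃ y ∈ D, y ∈ (S : Subgroup G) ∧ y ∉ P ∧ y ∈ Subgroup.normalizer (P : Set G) := by
  obtain ⟨Q, hPQ, hQmax⟩ := exists_maximal_ge_of_wellFoundedGT
    (fun Q : Subgroup G => P ≤ Q ∧ Q ≤ (S : Subgroup G) ∧ D ∩ (Q : Set G) ⊆ (P : Set G)) P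
    ⟨le_refl P, hPS, Set.inter_subset_right⟩
  obtain ⟨-, hQS, hQD⟩ := hQmax.1
  have hQne : Q ≠ (S : Subgroup G) := by
    intro h
    rw [h] at hQD
    exact hne hQD
  have hQlt : Q < (S : Subgroup G) := lt_of_le_of_ne hQS hQne
  obtain ⟨x, hxS, hxN, hxQ⟩ :=
    Cfsg.Agent.Helper19.exists_mem_normalizer_not_mem S.isPGroup' hQlt
  have hR : ¬ (D ∩ ((Subgroup.normalizer (Q : Set G) ⊓ (S : Subgroup G) : Subgroup G) : Set G) ⊆
      (P : Set G)) := by
    intro hsub
    have hle := hQmax.2 (y := Subgroup.normalizer (Q : Set G) ⊓ (S : Subgroup G))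
      ⟨hPQ.trans (le_inf Subgroup.le_normalizer hQS), inf_le_right, hsub⟩
      (le_inf Subgroup.le_normalizer hQS)
    exact hxQ (hle ⟨hxN, hxS⟩)
  rw [Set.not_subset] at hR
  obtain ⟨y, ⟨hyD, hyN, hyS⟩, hyP⟩ := hR
  refine ⟨y, hyD, hyS, hyP, ?_⟩
  have hstab : ∀ z ∈ Subgroup.normalizer (Q : Set G), ∀ h ∈ P, z * h * z⁻¹ ∈ P := by
    intro z hz h hh
    have hE : ∀ a ∈ D ∩ (P : Set G), z * a * z⁻¹ ∈ D ∩ (P : Set G) := by
      rintro a ⟨haD, haP⟩
      have h1 : z * a * z⁻¹ ∈ D := hD a haD z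
      have h2 : z * a * z⁻¹ ∈ Q := (Subgroup.mem_normalizer_iff.mp hz a).mp (hPQ haP)
      exact ⟨h1, hQD ⟨h1, h2⟩⟩
    have h3 := conj_closure (D ∩ (P : Set G)) z hE h (by rw [← hP]; exact hh)
    rw [← hP] at h3
    exact h3
  rw [Subgroup.mem_normalizer_iff]
  intro h
  constructor
  · exact fun hh => hstab y hyN h hh
  · intro hh
    have h4 := hstab y⁻¹ (Subgroup.inv_mem _ hyN) _ hh
    have e : y⁻¹ * (y * h * y⁻¹) * y⁻¹⁻¹ = h := by group
    rw [e] at h4
    exact h4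

/-- **Baer–Suzuki**, element form. -/
theorem baer_suzuki {G : Type*} [Group G] [Finite G] (p : ℕ) [Fact p.Prime] (D : Set G)
    (hD : ∀ a ∈ D, ∀ g : G, g * a * g⁻¹ ∈ D)
    (h : ∀ a ∈ D, ∀ b ∈ D, IsPGroup p (Subgroup.closure ({a, b} : Set G))) :
    IsPGroup p (Subgroup.closure D) := by
  classical
  by_cases hex : ∃ S : Sylow p G, D ⊆ ((S : Subgroup G) : Set G)
  · obtain ⟨S, hS⟩ := hex
    exact S.isPGroup'.to_le ((Subgroup.closure_le _).mpr hS)
  exfalso
  push Not at hex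
  -- the type of pairs of Sylow subgroups with different traces
  let α := {q : Sylow p G × Sylow p G //
    D ∩ ((q.1 : Subgroup G) : Set G) ≠ D ∩ ((q.2 : Subgroup G) : Set G)}
  have hne0 : Nonempty α := by
    obtain ⟨S₀⟩ : Nonempty (Sylow p G) := inferInstance
    have h0 := hex S₀
    rw [Set.not_subset] at h0
    obtain ⟨y, hyD, hyS⟩ := h0
    have hy : IsPGroup p (Subgroup.closure ({y, y} : Set G)) := h y hyD y hyD
    obtain ⟨T, hT⟩ := hy.exists_le_sylow
    have hyT : y ∈ (T : Subgroup G) := hT (Subgroup.subset_closure (by simp))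
    refine ⟨⟨(S₀, T), ?_⟩⟩
    intro heq
    have h1 : y ∈ D ∩ ((T : Subgroup G) : Set G) := ⟨hyD, hyT⟩
    rw [← heq] at h1
    exact hyS h1.2
  let f : α → ℕ := fun q =>
    (D ∩ (((q.1.1 : Subgroup G) : Set G) ∩ ((q.1.2 : Subgroup G) : Set G))).ncard
  obtain ⟨⟨⟨S, T⟩, hne⟩, hmax⟩ := Finite.exists_max f
  have hne' : D ∩ ((S : Subgroup G) : Set G) ≠ D ∩ ((T : Subgroup G) : Set G) := hne
  obtain ⟨P, hPdef⟩ : ∃ P : Subgroup G, P = Subgroup.closure
      (D ∩ (((S : Subgroup G) : Set G) ∩ ((T : Subgroup G) : Set G))) := ⟨_, rfl⟩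
  have hPS : P ≤ (S : Subgroup G) := by
    rw [hPdef, Subgroup.closure_le]; exact fun x hx => hx.2.1
  have hPT : P ≤ (T : Subgroup G) := by
    rw [hPdef, Subgroup.closure_le]; exact fun x hx => hx.2.2
  have hDP : D ∩ (P : Set G) =
      D ∩ (((S : Subgroup G) : Set G) ∩ ((T : Subgroup G) : Set G)) := by
    ext x
    constructor
    · rintro ⟨hd, hp⟩
      exact ⟨hd, hPS hp, hPT hp⟩
    · intro hx
      refine ⟨hx.1, ?_⟩
      rw [hPdef]; exact Subgroup.subset_closure hx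
  have hP : P = Subgroup.closure (D ∩ (P : Set G)) := by
    rw [hDP]; exact hPdef
  have hS_not : ¬ (D ∩ ((S : Subgroup G) : Set G) ⊆ (P : Set G)) := by
    intro hsub
    apply hne'
    exact Set.eq_of_subset_of_ncard_le (fun x hx => ⟨hx.1, hPT (hsub hx)⟩)
      (bs_card_eq p D hD S T).symm.le (Set.toFinite _)
  have hT_not : ¬ (D ∩ ((T : Subgroup G) : Set G) ⊆ (P : Set G)) := by
    intro hsub
    apply hne'
    symm
    exact Set.eq_of_subset_of_ncard_le (fun x hx => ⟨hx.1, hPS (hsub hx)⟩)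
      (bs_card_eq p D hD S T).le (Set.toFinite _)
  obtain ⟨yS, hySD, hySS, hySP, hySN⟩ := bs_normalizer p D hD S P hPS hP hS_not
  obtain ⟨yT, hyTD, hyTT, hyTP, hyTN⟩ := bs_normalizer p D hD T P hPT hP hT_not
  have hY : IsPGroup p (Subgroup.closure ({yS, yT} : Set G)) := h yS hySD yT hyTD
  have hYN : Subgroup.closure ({yS, yT} : Set G) ≤ Subgroup.normalizer (P : Set G) := by
    rw [Subgroup.closure_le]
    rintro z (hz | hz)
    · rw [hz]; exact hySN
    · rw [Set.mem_singleton_iff] at hz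
      rw [hz]; exact hyTN
  have hPp : IsPGroup p P := S.isPGroup'.to_le hPS
  have hYP : IsPGroup p (Subgroup.closure ({yS, yT} : Set G) ⊔ P : Subgroup G) :=
    IsPGroup.to_sup_of_normal_right' hY hPp hYN
  obtain ⟨R, hR⟩ := hYP.exists_le_sylow
  have hPR : P ≤ (R : Subgroup G) := le_sup_right.trans hR
  have hySR : yS ∈ (R : Subgroup G) :=
    hR ((le_sup_left : Subgroup.closure ({yS, yT} : Set G) ≤ _)
      (Subgroup.subset_closure (by simp)))
  have hyTR : yT ∈ (R : Subgroup G) :=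
    hR ((le_sup_left : Subgroup.closure ({yS, yT} : Set G) ≤ _)
      (Subgroup.subset_closure (by simp)))
  have hIP : D ∩ (((S : Subgroup G) : Set G) ∩ ((T : Subgroup G) : Set G)) ⊆ (P : Set G) := by
    rw [← hDP]; exact Set.inter_subset_right
  have eRS : D ∩ ((R : Subgroup G) : Set G) = D ∩ ((S : Subgroup G) : Set G) := by
    by_contra hneq
    have h1 := hmax ⟨(R, S), hneq⟩
    have hlt : (D ∩ (((S : Subgroup G) : Set G) ∩ ((T : Subgroup G) : Set G))).ncard <
        (D ∩ (((R : Subgroup G) : Set G) ∩ ((S : Subgroup G) : Set G))).ncard := by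
      refine Set.ncard_lt_ncard ?_ (Set.toFinite _)
      have hsub : D ∩ (((S : Subgroup G) : Set G) ∩ ((T : Subgroup G) : Set G)) ⊆
          D ∩ (((R : Subgroup G) : Set G) ∩ ((S : Subgroup G) : Set G)) :=
        fun x hx => ⟨hx.1, hPR (hIP hx), hx.2.1⟩
      exact (Set.ssubset_iff_of_subset hsub).mpr
        ⟨yS, ⟨hySD, hySR, hySS⟩, fun hx => hySP (hIP hx)⟩
    exact absurd h1 (not_le.mpr hlt)
  have eRT : D ∩ ((R : Subgroup G) : Set G) = D ∩ ((T : Subgroup G) : Set G) := by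
    by_contra hneq
    have h1 := hmax ⟨(R, T), hneq⟩
    have hlt : (D ∩ (((S : Subgroup G) : Set G) ∩ ((T : Subgroup G) : Set G))).ncard <
        (D ∩ (((R : Subgroup G) : Set G) ∩ ((T : Subgroup G) : Set G))).ncard := by
      refine Set.ncard_lt_ncard ?_ (Set.toFinite _)
      have hsub : D ∩ (((S : Subgroup G) : Set G) ∩ ((T : Subgroup G) : Set G)) ⊆
          D ∩ (((R : Subgroup G) : Set G) ∩ ((T : Subgroup G) : Set G)) :=
        fun x hx => ⟨hx.1, hPR (hIP hx), hx.2.2⟩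
      exact (Set.ssubset_iff_of_subset hsub).mpr
        ⟨yT, ⟨hyTD, hyTR, hyTT⟩, fun hx => hyTP (hIP hx)⟩
    exact absurd h1 (not_le.mpr hlt)
  exact hne' (eRS.symm.trans eRT)

end Cfsg.Agent.Helper1
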