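import Mathlib
import Cfsg.Agent.S0111

set_option autoImplicit false

open scoped Pointwise

namespace Cfsg.Agent.Helper1.O504C

theorem mem_zp4 {G : Type*} [Group G] [Finite G] (v w : G) (hv : orderOf v = 4)
    (hw : w ∈ Subgroup.zpowers v) : w = 1 ∨ w = v ∨ w = v ^ 2 ∨ w = v ^ 3 := by
  classical
  rw [mem_zpowers_iff_mem_range_orderOf, hv] at hw
  simp only [Finset.mem_image, Finset.mem_range] at hw
  obtain ⟨k, hk, rfl⟩ := hw
  interval_cases k <;> simp

variable {G : Type*} [Group G] [Finite G] [IsSimpleGroup G]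

theorem invol_central (h : Nat.card G = 504) (u : G) (hu : orderOf u = 2) :
    ∃ T : Sylow 2 G, (T : Subgroup G) ≤ Subgroup.centralizer ({u} : Set G) := by
  classical
  haveI : Fact (Nat.Prime 2) := ⟨Nat.prime_two⟩
  have hu2 : u ^ 2 = 1 := by rw [← hu]; exact pow_orderOf_eq_one u
  have hu1 : u ≠ 1 := by
    rintro rfl
    rw [orderOf_one] at hu; omega
  have hup : IsPGroup 2 (Subgroup.zpowers u) :=
    IsPGroup.of_card (n := 1) (by rw [Nat.card_zpowers, hu]; norm_num)
  obtain ⟨T, hT⟩ := hup.exists_le_sylow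
  have huT : u ∈ (T : Subgroup G) := hT (Subgroup.mem_zpowers u)
  have hTcard : Nat.card (T : Subgroup G) = 8 := by
    obtain ⟨k, hk⟩ := T.2.exists_card_eq
    have h1 := Subgroup.card_mul_index (T : Subgroup G)
    have h2 := T.not_dvd_index
    rw [h, hk] at h1
    rw [hk]
    have hk9 : k < 9 := by
      by_contra hcon
      push Not at hcon
      have h3 : 2 ^ 9 ≤ 2 ^ k := Nat.pow_le_pow_right (by norm_num) hcon
      have hpos : 0 < (T : Subgroup G).index :=
        Nat.pos_of_ne_zero (fun h0 => by rw [h0] at h1; omega)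
      nlinarith
    interval_cases k <;> norm_num at h1 ⊢ <;> omega
  by_cases hc : ∀ a ∈ (T : Subgroup G), a * u = u * a
  · refine ⟨T, fun a ha => ?_⟩
    rw [Subgroup.mem_centralizer_iff]
    intro x hx
    rw [Set.mem_singleton_iff] at hx
    rw [hx]
    exact (hc a ha).symm
  push Not at hc
  obtain ⟨a, haT, hau⟩ := hc
  have hex : ∃ v ∈ (T : Subgroup G), v ^ 2 ≠ 1 := by
    by_contra hcon
    push Not at hcon
    apply hau
    have h1 := hcon (a * u) (mul_mem haT huT)
    have h2 := hcon a haT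
    have ha' : a⁻¹ = a := by
      rw [inv_eq_iff_mul_eq_one, ← sq]; exact h2
    have hu' : u⁻¹ = u := by
      rw [inv_eq_iff_mul_eq_one, ← sq]; exact hu2
    have h3 : (a * u)⁻¹ = a * u := by
      rw [inv_eq_iff_mul_eq_one, ← sq]; exact h1
    rw [mul_inv_rev, ha', hu'] at h3
    exact h3.symm
  obtain ⟨v, hvT, hv2⟩ := hex
  have hv8 : orderOf v ∣ 8 := by rw [← hTcard]; exact Subgroup.orderOf_dvd_natCard _ hvT
  have hv4 : orderOf v = 4 := by
    have hle : orderOf v ≤ 8 := Nat.le_of_dvd (by norm_num) hv8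
    have hpos : 0 < orderOf v := orderOf_pos v
    have hn2 : ¬ orderOf v ∣ 2 := fun hd => hv2 (orderOf_dvd_iff_pow_eq_one.mp hd)
    have hne8 : orderOf v ≠ 8 := by
      intro h8
      have hzT : Subgroup.zpowers v = (T : Subgroup G) := by
        apply Subgroup.eq_of_le_of_card_ge
        · rw [Subgroup.zpowers_le]; exact hvT
        · rw [Nat.card_zpowers, h8, hTcard]
      apply hau
      rw [← hzT] at haT huT
      obtain ⟨i, hi⟩ := Subgroup.mem_zpowers_iff.mp haT
      obtain ⟨j, hj⟩ := Subgroup.mem_zpowers_iff.mp huT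
      rw [← hi, ← hj]
      exact zpow_mul_comm v i j
    obtain ⟨n, hn⟩ : ∃ n, orderOf v = n := ⟨_, rfl⟩
    rw [hn] at hv8 hle hpos hn2 hne8 ⊢
    interval_cases n <;> omega
  have hQT : Subgroup.zpowers v ≤ (T : Subgroup G) := by rw [Subgroup.zpowers_le]; exact hvT
  have hQcard : Nat.card (Subgroup.zpowers v) = 4 := by rw [Nat.card_zpowers, hv4]
  have hrel : (Subgroup.zpowers v).relIndex (T : Subgroup G) = 2 := by
    have h1 := Subgroup.relIndex_mul_index hQT
    have h2 := Subgroup.card_mul_index (Subgroup.zpowers v)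
    have h3 := Subgroup.card_mul_index (T : Subgroup G)
    rw [hQcard, h] at h2
    rw [hTcard, h] at h3
    have h4 : (Subgroup.zpowers v).index = 126 := by omega
    have h5 : (T : Subgroup G).index = 63 := by omega
    rw [h4, h5] at h1
    omega
  have hv4' : v ^ 4 = 1 := by rw [← hv4]; exact pow_orderOf_eq_one v
  have hv6 : v ^ (3 * 2) = v ^ 2 := by
    have h1 : v ^ (3 * 2) = v ^ 4 * v ^ 2 := by rw [← pow_add]
    rw [h1, hv4', one_mul]
  have hnorm : ∀ b ∈ (T : Subgroup G), b * v * b⁻¹ ∈ Subgroup.zpowers v := by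
    intro b hb
    have hN : ((Subgroup.zpowers v).subgroupOf (T : Subgroup G)).Normal :=
      Subgroup.normal_of_index_eq_two hrel
    have h1 := hN.conj_mem (⟨v, hvT⟩ : (T : Subgroup G)) (by
      rw [Subgroup.mem_subgroupOf]; exact Subgroup.mem_zpowers v) ⟨b, hb⟩
    simpa [Subgroup.mem_subgroupOf] using h1
  have hcancel : ∀ b x : G, b * x * b⁻¹ = 1 → x = 1 := by
    intro b x hx
    have h1 := congrArg (fun y => b⁻¹ * y * b) hx
    simpa [mul_assoc] using h1
  have hz : ∀ b ∈ (T : Subgroup G), b * v ^ 2 * b⁻¹ = v ^ 2 := by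
    intro b hb
    have hw := hnorm b hb
    have hpow : ∀ k : ℕ, (b * v * b⁻¹) ^ k = b * v ^ k * b⁻¹ := fun k => conj_pow
    rcases mem_zp4 v _ hv4 hw with h1 | h1 | h1 | h1
    · exfalso
      have h2 : v = 1 := hcancel b v h1
      rw [h2] at hv2; simp at hv2
    · rw [← hpow, h1]
    · exfalso
      have h2 : (b * v * b⁻¹) ^ 2 = 1 := by rw [h1, ← pow_mul]; exact hv4'
      rw [hpow] at h2
      exact hv2 (hcancel b _ h2)
    · rw [← hpow, h1, ← pow_mul, hv6]
  have huQ : u ∉ Subgroup.zpowers v := by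
    intro huQ
    rcases mem_zp4 v u hv4 huQ with h1 | h1 | h1 | h1
    · exact hu1 h1
    · rw [h1] at hu2; exact hv2 hu2
    · apply hau
      rw [h1]
      exact mul_inv_eq_iff_eq_mul.mp (hz a haT)
    · rw [h1, ← pow_mul, hv6] at hu2
      exact hv2 hu2
  rcases Cfsg.Agent.S0111.result T (Subgroup.zpowers v) hQT hrel u hu huT huQ with
    ⟨M, hMn, hMi, -⟩ | ⟨g, hg⟩
  · exfalso
    rcases hMn.eq_bot_or_eq_top with rfl | rfl
    · rw [Subgroup.index_bot, h] at hMi; omega
    · rw [Subgroup.index_top] at hMi; omega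
  · have hw2 : (g * u * g⁻¹) ^ 2 = 1 := by rw [conj_pow, hu2]; group
    have hw1 : g * u * g⁻¹ ≠ 1 := fun h1 => hu1 (hcancel g u h1)
    have hgz : g * u * g⁻¹ = v ^ 2 := by
      rcases mem_zp4 v _ hv4 hg with h1 | h1 | h1 | h1
      · exact absurd h1 hw1
      · rw [h1] at hw2; exact absurd hw2 hv2
      · exact h1
      · rw [h1, ← pow_mul, hv6] at hw2
        exact absurd hw2 hv2
    refine ⟨g⁻¹ • T, ?_⟩
    intro x hx
    rw [Sylow.coe_subgroup_smul, Subgroup.mem_smul_pointwise_iff_exists] at hx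
    obtain ⟨b, hb, rfl⟩ := hx
    rw [Subgroup.mem_centralizer_iff]
    intro y hy
    rw [Set.mem_singleton_iff] at hy
    rw [hy, MulAut.smul_def, MulAut.conj_apply, inv_inv]
    have h1 := hz b hb
    rw [← hgz] at h1
    have h2 : b * (g * u * g⁻¹) = (g * u * g⁻¹) * b := mul_inv_eq_iff_eq_mul.mp h1
    calc u * (g⁻¹ * b * g) = g⁻¹ * ((g * u * g⁻¹) * b) * g := by group
      _ = g⁻¹ * (b * (g * u * g⁻¹)) * g := by rw [h2]
      _ = g⁻¹ * b * g * u := by group

end Cfsg.Agent.Helper1.O504C
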