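import Mathlib

open Matrix

namespace Cfsg.Agent.Helper1.S2486b

/-- the column-count measure -/
def mu {n : ℕ} (h : Matrix (Fin n) (Fin n) (ZMod 2)) : Fin n → ℕ :=
  fun j => (Finset.univ.filter fun a => h a j ≠ 0).card

/-- upper triangular with determinant one -/
def T (n : ℕ) : Set (Matrix (Fin n) (Fin n) (ZMod 2)) :=
  {u | u.BlockTriangular id ∧ u.det = 1}

theorem one_mem_T (n : ℕ) : (1 : Matrix (Fin n) (Fin n) (ZMod 2)) ∈ T n :=
  ⟨Matrix.blockTriangular_one, Matrix.det_one⟩

theorem mul_mem_T {n : ℕ} {u v : Matrix (Fin n) (Fin n) (ZMod 2)} (hu : u ∈ T n)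
    (hv : v ∈ T n) : u * v ∈ T n :=
  ⟨hu.1.mul hv.1, by rw [Matrix.det_mul, hu.2, hv.2, one_mul]⟩

theorem tv_mem_T {n : ℕ} (i j : Fin n) (hij : i < j) :
    Matrix.transvection i j (1 : ZMod 2) ∈ T n := by
  refine ⟨?_, Matrix.det_transvection_of_ne i j hij.ne 1⟩
  intro a b hab
  simp only [id] at hab
  rw [Matrix.transvection, Matrix.add_apply, Matrix.one_apply_ne (ne_of_gt hab),
    Matrix.single_apply_of_ne, add_zero]
  rintro ⟨rfl, rfl⟩
  exact absurd hab (not_lt.2 hij.le)

theorem tv_sq {n : ℕ} (i j : Fin n) (hij : i ≠ j) :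
    Matrix.transvection i j (1 : ZMod 2) * Matrix.transvection i j (1 : ZMod 2) = 1 := by
  rw [Matrix.transvection_mul_transvection_same i j hij]
  have h2 : (1 : ZMod 2) + 1 = 0 := by decide
  rw [h2, Matrix.transvection_zero]

/-- the double coset -/
def D {n : ℕ} (g : Matrix (Fin n) (Fin n) (ZMod 2)) : Set (Matrix (Fin n) (Fin n) (ZMod 2)) :=
  {h | ∃ u ∈ T n, ∃ u' ∈ T n, g = u * h * u'}

theorem D_self {n : ℕ} (g : Matrix (Fin n) (Fin n) (ZMod 2)) : g ∈ D g :=
  ⟨1, one_mem_T n, 1, one_mem_T n, by simp⟩

theorem D_left {n : ℕ} {g h : Matrix (Fin n) (Fin n) (ZMod 2)} (hh : h ∈ D g) (i j : Fin n)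
    (hij : i < j) : Matrix.transvection i j (1 : ZMod 2) * h ∈ D g := by
  obtain ⟨u, hu, u', hu', rfl⟩ := hh
  refine ⟨u * Matrix.transvection i j 1, mul_mem_T hu (tv_mem_T i j hij), u', hu', ?_⟩
  have h1 : u * Matrix.transvection i j 1 * (Matrix.transvection i j 1 * h) * u' =
      u * (Matrix.transvection i j 1 * Matrix.transvection i j 1) * h * u' := by
    simp only [Matrix.mul_assoc]
  rw [h1, tv_sq i j hij.ne, Matrix.mul_one]

theorem D_right {n : ℕ} {g h : Matrix (Fin n) (Fin n) (ZMod 2)} (hh : h ∈ D g) (i j : Fin n)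
    (hij : i < j) : h * Matrix.transvection i j (1 : ZMod 2) ∈ D g := by
  obtain ⟨u, hu, u', hu', rfl⟩ := hh
  refine ⟨u, hu, Matrix.transvection i j 1 * u', mul_mem_T (tv_mem_T i j hij) hu', ?_⟩
  have h1 : u * (h * Matrix.transvection i j 1) * (Matrix.transvection i j 1 * u') =
      u * h * (Matrix.transvection i j 1 * Matrix.transvection i j 1) * u' := by
    simp only [Matrix.mul_assoc]
  rw [h1, tv_sq i j hij.ne, Matrix.mul_one]

theorem zmod2 (x : ZMod 2) (hx : x ≠ 0) : x = 1 := by
  revert x; decide

theorem key {n : ℕ} (g : Matrix (Fin n) (Fin n) (ZMod 2)) (hg : g.det = 1) :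
    ∃ h ∈ D g, ∃ f : Fin n → Fin n, ∀ a b, h a b = if a = f b then 1 else 0 := by
  classical
  have hwf : WellFounded (fun h' h : Matrix (Fin n) (Fin n) (ZMod 2) =>
      Pi.Lex (· < ·) (fun {_} => (· < ·)) (mu h') (mu h)) :=
    InvImage.wf mu (Pi.Lex.wellFounded (ι := Fin n) (α := fun _ => ℕ) (· < ·)
      (s := fun _ => (· < ·)) (fun _ => wellFounded_lt))
  obtain ⟨h, hhD, hmin⟩ := hwf.has_min (D g) ⟨g, D_self g⟩
  refine ⟨h, hhD, ?_⟩
  have hdet : h.det ≠ 0 := by
    obtain ⟨u, hu, u', hu', hgu⟩ := hhD
    intro h0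
    rw [hgu, Matrix.det_mul, Matrix.det_mul, h0] at hg
    simp at hg
  have hcol : ∀ j : Fin n, ∃ i, ∀ a, h a j = if a = i then 1 else 0 := by
    intro j
    induction' hm : j.val using Nat.strong_induction_on with m ih generalizing j
    have ih' : ∀ c : Fin n, c < j → ∃ i, ∀ a, h a c = if a = i then 1 else 0 := by
      intro c hc
      exact ih c.val (by rw [← hm]; exact hc) c rfl
    choose! f hf using ih'
    -- step (a)
    have ha : ∀ c : Fin n, c < j → h (f c) j = 0 := by
      intro c hc
      by_contra hne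
      have h1 : h (f c) j = 1 := zmod2 _ hne
      apply hmin (h * Matrix.transvection c j 1) (D_right hhD c j hc)
      refine ⟨j, ?_, ?_⟩
      · intro b hb
        show mu _ b = mu _ b
        unfold mu
        congr 1
        ext a
        simp only [Finset.mem_filter, Finset.mem_univ, true_and]
        rw [Matrix.mul_transvection_apply_of_ne c j a b hb.ne]
      · show mu _ j < mu _ j
        unfold mu
        apply Finset.card_lt_card
        rw [Finset.ssubset_iff_of_subset]
        · refine ⟨f c, ?_, ?_⟩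
          · simp [h1]
          · simp only [Finset.mem_filter, Finset.mem_univ, true_and, not_not]
            rw [Matrix.mul_transvection_apply_same, h1, one_mul, hf c hc, if_pos rfl]
            decide
        · intro a
          simp only [Finset.mem_filter, Finset.mem_univ, true_and]
          rw [Matrix.mul_transvection_apply_same, one_mul, hf c hc]
          intro hne2
          by_cases hac : a = f c
          · rw [hac, h1]; exact one_ne_zero
          · rw [if_neg hac, add_zero] at hne2
            exact hne2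
    -- step (b)
    have hnz : ∃ a, h a j ≠ 0 := by
      by_contra hall
      push Not at hall
      exact hdet (Matrix.det_eq_zero_of_column_eq_zero j hall)
    obtain ⟨i, hi, himax⟩ : ∃ i, h i j ≠ 0 ∧ ∀ a, h a j ≠ 0 → a ≤ i := by
      obtain ⟨a0, ha0⟩ := hnz
      have hne : (Finset.univ.filter fun a => h a j ≠ 0).Nonempty := ⟨a0, by simp [ha0]⟩
      refine ⟨(Finset.univ.filter fun a => h a j ≠ 0).max' hne, ?_, ?_⟩
      · have := Finset.max'_mem _ hne
        simpa using this
      · intro a ha'
        exact Finset.le_max' _ a (by simp [ha'])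
    refine ⟨i, fun a => ?_⟩
    by_cases hai : a = i
    · rw [if_pos hai, hai]; exact zmod2 _ hi
    · rw [if_neg hai]
      by_contra hne
      have hlt : a < i := lt_of_le_of_ne (himax a hne) hai
      have hrow : ∀ b : Fin n, b < j → h i b = 0 := by
        intro b hb
        rw [hf b hb, if_neg]
        intro hib
        exact hi (hib ▸ ha b hb)
      apply hmin (Matrix.transvection a i 1 * h) (D_left hhD a i hlt)
      refine ⟨j, ?_, ?_⟩
      · intro b hb
        show mu _ b = mu _ b
        unfold mu
        congr 1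
        ext a'
        simp only [Finset.mem_filter, Finset.mem_univ, true_and]
        by_cases haa : a' = a
        · rw [haa, Matrix.transvection_mul_apply_same, hrow b hb, mul_zero, add_zero]
        · rw [Matrix.transvection_mul_apply_of_ne a i a' b haa]
      · show mu _ j < mu _ j
        unfold mu
        apply Finset.card_lt_card
        rw [Finset.ssubset_iff_of_subset]
        · refine ⟨a, by simp [hne], ?_⟩
          simp only [Finset.mem_filter, Finset.mem_univ, true_and, not_not]
          rw [Matrix.transvection_mul_apply_same, zmod2 _ hne, zmod2 _ hi]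
          decide
        · intro a'
          simp only [Finset.mem_filter, Finset.mem_univ, true_and]
          by_cases haa : a' = a
          · intro _
            rw [haa]; exact hne
          · rw [Matrix.transvection_mul_apply_of_ne a i a' j haa]
            exact id
  choose f hf using hcol
  exact ⟨f, fun a b => hf b a⟩

theorem bruhat (n : ℕ) (g : Matrix.SpecialLinearGroup (Fin n) (ZMod 2)) :
    ∃ (u u' : Matrix.SpecialLinearGroup (Fin n) (ZMod 2)) (σ : Equiv.Perm (Fin n)),
      (u : Matrix (Fin n) (Fin n) (ZMod 2)).BlockTriangular id ∧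
      (u' : Matrix (Fin n) (Fin n) (ZMod 2)).BlockTriangular id ∧
      (g : Matrix (Fin n) (Fin n) (ZMod 2)) =
        (u : Matrix (Fin n) (Fin n) (ZMod 2)) * Equiv.Perm.permMatrix (ZMod 2) σ *
          (u' : Matrix (Fin n) (Fin n) (ZMod 2)) := by
  obtain ⟨h, ⟨u, hu, u', hu', hgu⟩, f, hf⟩ := key (g : Matrix (Fin n) (Fin n) (ZMod 2)) g.2
  have hdet : h.det ≠ 0 := by
    intro h0
    have h1 := g.2
    rw [hgu, Matrix.det_mul, Matrix.det_mul, h0] at h1
    simp at h1
  have hinj : Function.Injective f := by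
    intro b b' hbb
    by_contra hne
    exact hdet (Matrix.det_zero_of_column_eq hne (fun k => by rw [hf, hf, hbb]))
  have hbij : Function.Bijective f := Finite.injective_iff_bijective.1 hinj
  refine ⟨⟨u, hu.2⟩, ⟨u', hu'.2⟩, (Equiv.ofBijective f hbij).symm, hu.1, hu'.1, ?_⟩
  have hP : h = Equiv.Perm.permMatrix (ZMod 2) (Equiv.ofBijective f hbij).symm := by
    ext a b
    rw [hf, Equiv.Perm.permMatrix, PEquiv.toMatrix_apply, Equiv.toPEquiv_apply]
    simp only [Option.mem_def, Option.some.injEq]
    congr 1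
    rw [eq_iff_iff, Equiv.symm_apply_eq]
    simp
  rw [← hP]
  exact hgu

end Cfsg.Agent.Helper1.S2486b
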