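import Mathlib
import Cfsg.Agent.Lead.Derange

set_option autoImplicit false

/-!
Helper lemma (helper1, requested by helper3 for S4135): if every element of a normal subgroup `N`
has centralizer index `1` or `m` in `G`, and `p ∤ m`, then every `p`-subgroup of `N` centralizes `N`.
-/

namespace Cfsg.Agent.Helper1.S4135a

theorem relIndex_dvd_index_of_normal_right {G : Type*} [Group G] [Finite G] (C N : Subgroup G)
    [N.Normal] : C.relIndex N ∣ C.index := by
  have h1 : C.relIndex N * N.index = (C ⊓ N).index := by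
    rw [← Subgroup.inf_relIndex_right C N]
    exact Subgroup.relIndex_mul_index inf_le_right
  have h2 : N.relIndex C * C.index = (C ⊓ N).index := by
    rw [← Subgroup.inf_relIndex_right N C, inf_comm N C]
    exact Subgroup.relIndex_mul_index inf_le_left
  obtain ⟨k, hk⟩ := Subgroup.relIndex_dvd_index_of_normal (H := N) (K := C)
  have hpos : 0 < N.relIndex C := Nat.pos_of_ne_zero (by
    unfold Subgroup.relIndex
    exact Subgroup.index_ne_zero_of_finite)
  have h3 : N.relIndex C * (C.relIndex N * k) = N.relIndex C * C.index := by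
    rw [h2, ← h1, hk]; ring
  exact ⟨k, (Nat.eq_of_mul_eq_mul_left hpos h3).symm⟩

theorem lemA {G : Type*} [Group G] [Finite G] (N : Subgroup G) [N.Normal] (m : ℕ)
    (h : ∀ x ∈ N, (Subgroup.centralizer ({x} : Set G)).index = 1 ∨
      (Subgroup.centralizer ({x} : Set G)).index = m)
    (p : ℕ) [Fact p.Prime] (hpm : ¬ p ∣ m) (P : Subgroup G) (hP : IsPGroup p P) (hPN : P ≤ N) :
    ∀ t ∈ P, ∀ x ∈ N, t * x = x * t := by
  have key : N ≤ N ⊓ Subgroup.centralizer (P : Set G) := by
    apply Cfsg.Agent.Lead.Derange.union_conj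
    intro x hx
    have hQ : IsPGroup p ↥(P.subgroupOf N) := hP.comap_subtype
    have hnd : ¬ p ∣ Nat.card (↥N ⧸ (Subgroup.centralizer ({x} : Set G)).subgroupOf N) := by
      intro hd
      have h1 : (Subgroup.centralizer ({x} : Set G)).relIndex N ∣
          (Subgroup.centralizer ({x} : Set G)).index :=
        relIndex_dvd_index_of_normal_right _ N
      have h2 : p ∣ (Subgroup.centralizer ({x} : Set G)).index := dvd_trans hd h1
      rcases h x hx with h3 | h3
      · rw [h3] at h2
        exact (Fact.out : p.Prime).one_lt.ne' (Nat.dvd_one.mp h2)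
      · rw [h3] at h2
        exact hpm h2
    obtain ⟨q, hq⟩ := hQ.nonempty_fixed_point_of_prime_not_dvd_card
      (↥N ⧸ (Subgroup.centralizer ({x} : Set G)).subgroupOf N) hnd
    obtain ⟨n, rfl⟩ := QuotientGroup.mk_surjective q
    refine ⟨(n : G)⁻¹, N.inv_mem n.2, Subgroup.mem_inf.mpr
      ⟨N.mul_mem (N.mul_mem (N.inv_mem (N.inv_mem n.2)) hx) (N.inv_mem n.2), ?_⟩⟩
    rw [Subgroup.mem_centralizer_iff]
    intro t ht
    have ht' : t ∈ P := ht
    have h1 := hq ⟨⟨t, hPN ht'⟩, Subgroup.mem_subgroupOf.mpr ht'⟩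
    have h2 : (QuotientGroup.mk ((⟨t, hPN ht'⟩ : ↥N) * n) :
        ↥N ⧸ (Subgroup.centralizer ({x} : Set G)).subgroupOf N) = QuotientGroup.mk n := h1
    rw [QuotientGroup.eq, Subgroup.mem_subgroupOf] at h2
    have h3 : x * ((t * (n : G))⁻¹ * (n : G)) = (t * (n : G))⁻¹ * (n : G) * x :=
      Subgroup.mem_centralizer_iff.mp h2 x (Set.mem_singleton x)
    rw [inv_inv]
    calc t * ((n : G) * x * (n : G)⁻¹)
        = t * (n : G) * (x * ((t * (n : G))⁻¹ * (n : G))) * (n : G)⁻¹ * t := by group
      _ = t * (n : G) * ((t * (n : G))⁻¹ * (n : G) * x) * (n : G)⁻¹ * t := by rw [h3]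
      _ = (n : G) * x * (n : G)⁻¹ * t := by group
  intro t ht x hx
  exact Subgroup.mem_centralizer_iff.mp (key hx).2 t ht

end Cfsg.Agent.Helper1.S4135a
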