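import Mathlib

set_option autoImplicit false

namespace Cfsg.Agent.Helper1.SL23Comm

set_option maxHeartbeats 4000000 in
set_option maxRecDepth 100000 in
/-- In `SL₂(3)`: if every conjugate of `x` commutes with `y`, then `x` or `y` is central. -/
theorem comm3 : ∀ x y : Matrix.SpecialLinearGroup (Fin 2) (ZMod 3),
    (∀ g : Matrix.SpecialLinearGroup (Fin 2) (ZMod 3), (g * x * g⁻¹) * y = y * (g * x * g⁻¹)) →
      (∀ t : Matrix.SpecialLinearGroup (Fin 2) (ZMod 3), x * t = t * x) ∨
        (∀ t : Matrix.SpecialLinearGroup (Fin 2) (ZMod 3), y * t = t * y) := by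
  decide +kernel

end Cfsg.Agent.Helper1.SL23Comm
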