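import Mathlib

set_option autoImplicit false

namespace Cfsg.Agent.Helper1

open MulAction Subgroup

/-- if all cycle-factors of `g` are killed by `ϕ`, the transfer of `g` is trivial -/
theorem transfer_eq_one_of_factors {G : Type*} [Group G] {M : Subgroup G} [M.FiniteIndex]
    {A : Type*} [CommGroup A] (ϕ : M →* A) (g : G)
    (h : ∀ (x : G) (n : ℕ) (hy : x⁻¹ * g ^ n * x ∈ M), ϕ ⟨x⁻¹ * g ^ n * x, hy⟩ = 1) :
    MonoidHom.transfer ϕ g = 1 := by
  classical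
  letI := M.fintypeQuotientOfFiniteIndex
  rw [MonoidHom.transfer_eq_prod_quotient_orbitRel_zpowers_quot]
  exact Finset.prod_eq_one (fun q _ => h _ _ _)

/-- if all cycle-factors of `g ∈ M` at cosets other than `M` are killed by `ϕ`, the transfer of
`g` is `ϕ g` -/
theorem transfer_eq_of_factors {G : Type*} [Group G] {M : Subgroup G} [M.FiniteIndex]
    {A : Type*} [CommGroup A] (ϕ : M →* A) (g : G) (hg : g ∈ M)
    (h : ∀ (x : G), x ∉ M → ∀ (n : ℕ) (hy : x⁻¹ * g ^ n * x ∈ M),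
      ϕ ⟨x⁻¹ * g ^ n * x, hy⟩ = 1) :
    MonoidHom.transfer ϕ g = ϕ ⟨g, hg⟩ := by
  classical
  letI := M.fintypeQuotientOfFiniteIndex
  rw [MonoidHom.transfer_eq_prod_quotient_orbitRel_zpowers_quot]
  obtain ⟨q0, hq0⟩ : ∃ q0 : Quotient (orbitRel (zpowers g) (G ⧸ M)),
      q0 = Quotient.mk (orbitRel (zpowers g) (G ⧸ M)) ((1 : G) : G ⧸ M) := ⟨_, rfl⟩
  have aux : ∀ (y : M) (x : G), x ∈ M → (y : G) = x⁻¹ * g * x → ϕ y = ϕ ⟨g, hg⟩ := by
    intro y x hx hy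
    have : y = (⟨x, hx⟩ : M)⁻¹ * ⟨g, hg⟩ * ⟨x, hx⟩ := Subtype.ext hy
    rw [this, map_mul, map_mul, map_inv, mul_comm, mul_inv_cancel_left]
  have hout : q0.out = ((1 : G) : G ⧸ M) := by
    have h1 : q0.out ∈ orbit (zpowers g) (((1 : G) : G ⧸ M)) := by
      rw [hq0]
      exact Quotient.mk_out (s := orbitRel (zpowers g) (G ⧸ M)) (((1 : G) : G ⧸ M))
    obtain ⟨⟨z, hz⟩, hz2⟩ := h1
    rw [← hz2]
    show ((z * 1 : G) : G ⧸ M) = _
    rw [mul_one, QuotientGroup.eq]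
    simpa using M.inv_mem ((zpowers_le.mpr hg) hz)
  have hx0 : q0.out.out ∈ M := by
    have h1 : ((q0.out.out : G) : G ⧸ M) = ((1 : G) : G ⧸ M) :=
      (QuotientGroup.out_eq' q0.out).trans hout
    rw [QuotientGroup.eq] at h1
    simpa using M.inv_mem h1
  have hper : Function.minimalPeriod (g • ·) q0.out = 1 := by
    rw [Function.minimalPeriod_eq_one_iff_isFixedPt, hout]
    show ((g * 1 : G) : G ⧸ M) = _
    rw [mul_one, QuotientGroup.eq]
    simpa using hg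
  rw [Fintype.prod_eq_single q0]
  · apply aux _ q0.out.out hx0
    show q0.out.out⁻¹ * g ^ Function.minimalPeriod (g • ·) q0.out * q0.out.out = _
    rw [hper, pow_one]
  · intro q hq
    apply h
    intro hx
    apply hq
    have h1 : q.out = ((1 : G) : G ⧸ M) := by
      rw [← QuotientGroup.out_eq' q.out, QuotientGroup.eq]
      simpa using M.inv_mem hx
    rw [hq0, ← h1]
    exact (Quotient.out_eq q).symm

/-- packaged transfer into a commutative group -/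
theorem exists_transfer {G : Type*} [Group G] {M : Subgroup G} [M.FiniteIndex]
    {A : Type*} [CommGroup A] (ϕ : M →* A) :
    ∃ V : G →* A,
      (∀ g : G, (∀ (x : G) (n : ℕ) (hy : x⁻¹ * g ^ n * x ∈ M), ϕ ⟨x⁻¹ * g ^ n * x, hy⟩ = 1) →
        V g = 1) ∧
      (∀ (g : G) (hg : g ∈ M), (∀ (x : G), x ∉ M → ∀ (n : ℕ) (hy : x⁻¹ * g ^ n * x ∈ M),
        ϕ ⟨x⁻¹ * g ^ n * x, hy⟩ = 1) → V g = ϕ ⟨g, hg⟩) :=
  ⟨MonoidHom.transfer ϕ, fun g h => transfer_eq_one_of_factors ϕ g h,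
    fun g hg h => transfer_eq_of_factors ϕ g hg h⟩

/-- same, for a group with a commutativity proof -/
theorem exists_transfer' {G : Type*} [Group G] {M : Subgroup G} [M.FiniteIndex]
    {A : Type*} [Group A] (hA : ∀ a b : A, a * b = b * a) (ϕ : M →* A) :
    ∃ V : G →* A,
      (∀ g : G, (∀ (x : G) (n : ℕ) (hy : x⁻¹ * g ^ n * x ∈ M), ϕ ⟨x⁻¹ * g ^ n * x, hy⟩ = 1) →
        V g = 1) ∧
      (∀ (g : G) (hg : g ∈ M), (∀ (x : G), x ∉ M → ∀ (n : ℕ) (hy : x⁻¹ * g ^ n * x ∈ M),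
        ϕ ⟨x⁻¹ * g ^ n * x, hy⟩ = 1) → V g = ϕ ⟨g, hg⟩) :=
  @exists_transfer G _ M _ A { ‹Group A› with mul_comm := hA } ϕ

end Cfsg.Agent.Helper1
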